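import Mathlib
import Cfsg.Agent.H793.PC.Pi
import Cfsg.Agent.Blocks.Deflate
import Cfsg.Agent.H586.GW.Rel

/-!
# S4816, case B: product characters of central products (helper229)
-/

set_option autoImplicit false
set_option linter.unusedSectionVars false
set_option linter.style.haveILetI false

open Cfsg
open scoped commutatorElement

namespace Cfsg.Agent.H229.RIM

open Cfsg.Agent.Characters.Core

universe u v w

theorem exists_irr_of_ker {A : Type v} [Group A] [Finite A] {B : Type w} [Group B] (f : A →* B)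
    (hf : Function.Surjective f) {χ : A → ℂ} (hχ : IsIrrCharacter A χ) (hker : ∀ z : A, f z = 1 → χ z = χ 1) :
    ∃ χ' : B → ℂ, IsIrrCharacter B χ' ∧ ∀ g, χ g = χ' (f g) := by
  classical
  have := Fintype.ofFinite f.ker
  obtain ⟨χ', hχ'⟩ := Cfsg.Agent.Blocks.Deflate.exists_deflation f.ker χ hχ (by
    rw [Finset.sum_congr rfl fun n _ => show χ ((n : f.ker) : A) = χ 1 from hker n n.2, Finset.sum_const,
      nsmul_eq_mul]
    refine mul_ne_zero ?_ (isIrr_apply_one_ne_zero hχ)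
    exact Nat.cast_ne_zero.2 (Finset.card_ne_zero.2 ⟨1, Finset.mem_univ _⟩))
  let e := QuotientGroup.quotientKerEquivOfSurjective f hf
  refine ⟨(χ' : A ⧸ f.ker → ℂ) ∘ e.symm, isIrr_comp e.symm.toMonoidHom e.symm.surjective χ'.2, fun g => ?_⟩
  refine (congrFun hχ' g).trans ?_
  have h1 : e.symm (f g) = (g : A ⧸ f.ker) := by
    rw [MulEquiv.symm_apply_eq]
    rfl
  exact congrArg (χ' : A ⧸ f.ker → ℂ) h1.symm

section

variable {G : Type u} [Group G] [Finite G] {Z : Subgroup G} {ι : Type v} [Fintype ι]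

theorem exists_prod_mem (l : Z →* ℂˣ) (k : ι → G) (hk : ∀ i, k i ∈ Z) (s : Finset ι)
    (hc : (s : Set ι).Pairwise fun i j => Commute (k i) (k j)) :
    ∃ h : s.noncommProd k hc ∈ Z, (l ⟨_, h⟩ : ℂ) = ∏ i ∈ s, (l ⟨k i, hk i⟩ : ℂ) := by
  classical
  induction s using Finset.induction_on with
  | empty =>
    refine ⟨by rw [Finset.noncommProd_empty]; exact Z.one_mem, ?_⟩
    rw [Finset.prod_empty]
    have : l ⟨(∅ : Finset ι).noncommProd k hc, by rw [Finset.noncommProd_empty]; exact Z.one_mem⟩ = l 1 :=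
      congrArg l (Subtype.ext (show (∅ : Finset ι).noncommProd k hc = 1 from Finset.noncommProd_empty k hc))
    rw [this, map_one, Units.val_one]
  | @insert a s ha ih =>
    obtain ⟨h1, h2⟩ := ih (hc.mono (by simp))
    have h3 := Finset.noncommProd_insert_of_notMem s a k hc ha
    have h4 : (insert a s).noncommProd k hc ∈ Z := by
      rw [h3]
      exact Z.mul_mem (hk a) h1
    refine ⟨h4, ?_⟩
    rw [Finset.prod_insert ha, ← h2, ← Units.val_mul, ← map_mul]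
    exact congrArg (fun x => (l x : ℂ)) (Subtype.ext h3)

/-- **Product characters.** -/
theorem exists_prodChar (l : Z →* ℂˣ) (L : ι → Subgroup G)
    (hcomm : Pairwise fun i j => ∀ x y : G, x ∈ L i → y ∈ L j → Commute x y)
    (hcen : ∀ i, ∀ x ∈ L i, (∀ y ∈ L i, x * y = y * x) → x ∈ Z)
    (ψ : ∀ i, L i → ℂ) (hψ : ∀ i, IsIrrCharacter (L i) (ψ i))
    (hov : ∀ i (x : G) (hx : x ∈ L i) (hz : x ∈ Z), ψ i ⟨x, hx⟩ = ψ i 1 * l ⟨x, hz⟩)
    {Y : Subgroup G} (hY : Y = ⨆ i, L i) :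
    ∃ χ : Y → ℂ, IsIrrCharacter Y χ ∧ χ 1 = ∏ i, ψ i 1 ∧
      ∀ i (x : G) (hx : x ∈ L i) (hxY : x ∈ Y), χ ⟨x, hxY⟩ * ψ i 1 = χ 1 * ψ i ⟨x, hx⟩ := by
  classical
  let Φ : (∀ i, L i) →* G := Subgroup.noncommPiCoprod hcomm
  have hΦr : Φ.range = Y := by rw [hY]; exact Subgroup.noncommPiCoprod_range
  have hΦs : ∀ i (y : L i), Φ (Pi.mulSingle i y) = y := fun i y => Subgroup.noncommPiCoprod_mulSingle i y
  let f : (∀ i, L i) →* Y := Φ.codRestrict Y (fun x => by rw [← hΦr]; exact ⟨x, rfl⟩)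
  have hfc : ∀ x, (f x : G) = Φ x := fun _ => rfl
  have hf : Function.Surjective f := by
    rintro ⟨y, hy⟩
    rw [← hΦr] at hy
    obtain ⟨x, hx⟩ := hy
    exact ⟨x, Subtype.ext hx⟩
  have hF := Cfsg.Agent.H793.PC.isIrr_pi hψ
  have hker : ∀ k, f k = 1 → (∏ i, ψ i (k i)) = ∏ i, ψ i ((1 : ∀ i, L i) i) := by
    intro k hk
    have hk' : Φ k = 1 := congrArg Subtype.val hk
    have hkZ : ∀ i, (k i : G) ∈ Z := by
      intro i
      refine hcen i _ (k i).2 fun y hy => ?_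
      have h1 : k * Pi.mulSingle i ⟨y, hy⟩ * k⁻¹ * (Pi.mulSingle i ⟨y, hy⟩)⁻¹ =
          Pi.mulSingle i (k i * ⟨y, hy⟩ * (k i)⁻¹ * (⟨y, hy⟩ : L i)⁻¹) := by
        funext j
        by_cases hj : j = i
        · subst hj
          simp
        · simp [Pi.mulSingle_eq_of_ne hj]
      have h2 := congrArg Φ h1
      rw [hΦs, map_mul, map_mul, map_mul, map_inv, map_inv, hk', hΦs, one_mul, inv_one, mul_one,
        mul_inv_cancel] at h2
      have h3 : (k i : G) * y * (k i : G)⁻¹ * y⁻¹ = 1 := h2.symm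
      rw [mul_inv_eq_one, mul_inv_eq_iff_eq_mul] at h3
      exact h3
    have h1 : ∀ i, ψ i (k i) = ψ i ((1 : ∀ i, L i) i) * l ⟨k i, hkZ i⟩ := fun i =>
      hov i _ (k i).2 (hkZ i)
    rw [Finset.prod_congr rfl fun i _ => h1 i, Finset.prod_mul_distrib]
    have h2 := Subgroup.noncommPiCoprod_apply hcomm k
    obtain ⟨h3, h4⟩ := exists_prod_mem l (fun i => (k i : G)) hkZ Finset.univ
      (fun i _ j _ h => hcomm h _ _ (k i).2 (k j).2)
    rw [← h4]
    have h5 : l ⟨_, h3⟩ = l 1 := congrArg l (Subtype.ext (h2.symm.trans hk'))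
    rw [h5, map_one, Units.val_one, mul_one]
  obtain ⟨χ, hχ, hχf⟩ := exists_irr_of_ker f hf hF hker
  have h1 : χ 1 = ∏ i, ψ i 1 := by
    have h2 := hχf 1
    rw [map_one] at h2
    exact h2.symm
  refine ⟨χ, hχ, h1, fun i x hx hxY => ?_⟩
  have h2 : χ ⟨x, hxY⟩ = ψ i ⟨x, hx⟩ * ∏ j ∈ Finset.univ.erase i, ψ j 1 := by
    have h3 : f (Pi.mulSingle i ⟨x, hx⟩) = ⟨x, hxY⟩ := Subtype.ext (hΦs i ⟨x, hx⟩)
    rw [← h3, ← hχf, ← Finset.mul_prod_erase Finset.univ _ (Finset.mem_univ i), Pi.mulSingle_eq_same]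
    congr 1
    refine Finset.prod_congr rfl fun j hj => ?_
    rw [Pi.mulSingle_eq_of_ne (Finset.ne_of_mem_erase hj)]
  rw [h2, h1, ← Finset.mul_prod_erase Finset.univ _ (Finset.mem_univ i)]
  ring

end

end Cfsg.Agent.H229.RIM
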