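import Mathlib
import Cfsg.Agent.H229.RIM.Str
import Cfsg.Agent.H229.RIM.PChar
import Cfsg.Agent.H229.NX.Skel

/-!
# S4816, case B: the components (helper229)
-/

set_option autoImplicit false
set_option linter.unusedSectionVars false
set_option linter.style.haveILetI false

open Cfsg
open scoped commutatorElement Pointwise

namespace Cfsg.Agent.H229.RIM

open Cfsg.Agent.H229.NX MulAction

universe u

/-- The components of case B. -/
structure Comp (p : ℕ) {G : Type u} [Group G] [Finite G] (Z Y : Subgroup G) (l : Z →* ℂˣ) {Ω : Type u}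
    [MulAction G Ω] (L : Ω → Subgroup G) : Prop where
  min : MinX p Z l
  nY : Y.Normal
  ZY : Z < Y
  uniq : ∀ M : Subgroup G, M.Normal → Z < M → Y ≤ M
  sup : (⨆ ω, L ω) ⊔ Z = Y
  conj : ∀ (g : G) (ω : Ω), L (g • ω) = MulAut.conj g • L ω
  comm : ∀ i j : Ω, i ≠ j → ∀ a ∈ L i, ∀ b ∈ L j, a * b = b * a
  perf : ∀ i : Ω, ⁅L i, L i⁆ = L i
  ne : ∀ i : Ω, ¬ L i ≤ Z
  cen : ∀ i : Ω, ∀ x ∈ L i, (∀ y ∈ L i, x * y = y * x) → x ∈ Z
  cent : Subgroup.centralizer ((⨆ ω, L ω : Subgroup G) : Set G) = Z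
  mini : ∀ i : Ω, ∀ S : Subgroup G, S ≤ L i → (∀ g ∈ L i, ∀ s ∈ S, g * s * g⁻¹ ∈ S) → ¬ S ≤ Z → S = L i
  tr : ∀ i j : Ω, ∃ g : G, g • i = j
  inj : Function.Injective L

section

variable {p : ℕ} [hp : Fact p.Prime] {G : Type u} [Group G] [Finite G] {Z Y : Subgroup G} {l : Z →* ℂˣ}

/-- The components exist. -/
theorem CaseB.exists_comp (B : CaseB p Z Y l) :
    ∃ (Ω : Type u) (_ : Finite Ω) (_ : Nonempty Ω) (_ : MulAction G Ω) (L : Ω → Subgroup G), Comp p Z Y l L := by
  classical
  have M := B.min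
  haveI := M.zn
  haveI := B.nY
  -- `Z` is the centre
  have hY1 : ¬ ∀ a ∈ Y, ∀ b ∈ Y, a * b = b * a := by
    intro h
    have h1 : ⁅Y, Y⁆ = ⊥ := by
      rw [eq_bot_iff, Subgroup.commutator_le]
      intro a ha b hb
      rw [Subgroup.mem_bot, commutatorElement_eq_one_iff_mul_comm]
      exact h a ha b hb
    have h2 := B.perf
    rw [h1, bot_sup_eq] at h2
    exact B.ZY.ne h2
  have hcz : Subgroup.center G = Z := by
    refine le_antisymm ?_ M.cen
    by_contra hcon
    have h1 : Z < Subgroup.center G := lt_of_le_not_ge M.cen hcon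
    have h2 := B.uniq _ inferInstance h1
    exact hY1 fun a ha b _ => (Subgroup.mem_center_iff.1 (h2 ha) b).symm
  let E : Subgroup G := ⁅Y, Y⁆
  have hEn : E.Normal := inferInstance
  have hEY : E ≤ Y := Subgroup.commutator_le_left Y Y
  have hEZ : E ⊔ Z = Y := B.perf
  have hcomm1 : ∀ S : Subgroup G, ⁅S ⊔ Z, S ⊔ Z⁆ ≤ ⁅S, S⁆ := by
    intro S
    rw [Subgroup.commutator_le]
    intro a ha b hb
    obtain ⟨s, hs, z, hz, rfl⟩ := Subgroup.mem_sup_of_normal_right.1 ha
    obtain ⟨t, ht, w, hw, rfl⟩ := Subgroup.mem_sup_of_normal_right.1 hb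
    have h1 : ⁅s * z, t * w⁆ = ⁅s, t⁆ := by
      have hz' := Subgroup.mem_center_iff.1 (M.cen hz)
      have hw' := Subgroup.mem_center_iff.1 (M.cen hw)
      rw [commutatorElement_def, commutatorElement_def, mul_inv_rev, mul_inv_rev]
      calc s * z * (t * w) * (z⁻¹ * s⁻¹) * (w⁻¹ * t⁻¹)
          = s * (z * (t * w)) * z⁻¹ * s⁻¹ * w⁻¹ * t⁻¹ := by group
        _ = s * ((t * w) * z) * z⁻¹ * s⁻¹ * w⁻¹ * t⁻¹ := by rw [hz']
        _ = s * t * (w * (s⁻¹ * w⁻¹)) * t⁻¹ := by group
        _ = s * t * (w * s⁻¹ * w⁻¹) * t⁻¹ := by group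
        _ = s * t * (s⁻¹ * w * w⁻¹) * t⁻¹ := by rw [← hw' s⁻¹]
        _ = s * t * s⁻¹ * t⁻¹ := by group
    rw [h1]
    exact Subgroup.commutator_mem_commutator hs ht
  have hperf : ⁅E, E⁆ = E := by
    refine le_antisymm (Subgroup.commutator_le_self _) ?_
    have h1 := hcomm1 E
    rw [hEZ] at h1
    exact h1
  have hEc : ¬ E ≤ Subgroup.center G := by
    intro h
    rw [hcz] at h
    have h1 := hEZ
    rw [sup_eq_right.2 h] at h1
    exact B.ZY.ne h1
  have hmin' : ∀ N : Subgroup G, N.Normal → N ≤ E → ¬ N ≤ Subgroup.center G → N = E := by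
    intro N hN hNE hc
    refine le_antisymm hNE ?_
    have h1 : Z < N ⊔ Z := lt_of_le_of_ne le_sup_right fun h => hc (by rw [hcz, h]; exact le_sup_left)
    have h2 := B.uniq _ inferInstance h1
    exact (Subgroup.commutator_mono h2 h2).trans ((hcomm1 N).trans (Subgroup.commutator_le_self _))
  have hcls : ¬ ⁅E, E⁆ ≤ Subgroup.center G := by rw [hperf]; exact hEc
  obtain ⟨T, hT⟩ := exists_minC hEc
  letI act : MulAction G (Subgroup G) := MulAction.compHom (Subgroup G) (MulAut.conj : G →* MulAut G)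
  have hact : ∀ (h : G) (S : Subgroup G), h • S = MulAut.conj h • S := fun _ _ => rfl
  let Ω : Type u := MulAction.orbit G T
  let L : Ω → Subgroup G := fun ω => ω.1
  have hLm : ∀ ω : Ω, MinC E (L ω) := by
    rintro ⟨S, h, rfl⟩
    exact hT.conj hEn h
  have hLh : ∀ (h : G) (ω : Ω), L (h • ω) = MulAut.conj h • L ω := fun _ _ => rfl
  have hsup : (⨆ ω, L ω) = E := by
    refine hmin' _ ?_ (iSup_le fun ω => (hLm ω).le) ?_
    · refine ⟨fun n hn g => ?_⟩
      have h1 : (⨆ ω, L ω) ≤ (⨆ ω, L ω).comap (MulAut.conj g).toMonoidHom := by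
        refine iSup_le fun ω x hx => ?_
        rw [Subgroup.mem_comap]
        refine (le_iSup L (g • ω)) ?_
        rw [hLh, mem_conj]
        change g⁻¹ * (g * x * g⁻¹) * g ∈ L ω
        have h2 : g⁻¹ * (g * x * g⁻¹) * g = x := by group
        rwa [h2]
      exact h1 hn
    · intro hc
      exact hT.nc ((le_iSup L ⟨T, MulAction.mem_orbit_self T⟩).trans hc)
  have hcommC : ∀ i j : Ω, i ≠ j → ∀ a ∈ L i, ∀ b ∈ L j, ⁅a, b⁆ ∈ Subgroup.center G :=
    fun i j hij a ha b hb => (hLm i).comm_mem (hLm j) (fun h => hij (Subtype.ext h)) ha hb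
  -- `L i` is perfect
  have hLperf : ∀ i : Ω, ⁅L i, L i⁆ = L i := by
    intro i
    have h1 : ¬ ⁅L i, L i⁆ ≤ Subgroup.center G := by
      intro hc
      apply hcls
      rw [← hsup]
      refine commutator_iSup_le L fun j k a ha b hb => ?_
      by_cases hjk : j = k
      · subst hjk
        obtain ⟨h, rfl⟩ := MulAction.exists_smul_eq G i j
        rw [hLh, mem_conj] at ha hb
        have h2 := hc (Subgroup.commutator_mem_commutator ha hb)
        have h3 := (inferInstance : (Subgroup.center G).Normal).conj_mem _ h2 h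
        have h4 : h * ⁅h⁻¹ * a * h, h⁻¹ * b * h⁆ * h⁻¹ = ⁅a, b⁆ := by
          simp only [commutatorElement_def]; group
        rwa [h4] at h3
      · exact hcommC j k hjk a ha b hb
    refine (hLm i).min _ ⟨(Subgroup.commutator_le_self _).trans (hLm i).le, fun g hg t ht => ?_, h1⟩
      (Subgroup.commutator_le_self _)
    have h2 : (⁅L i, L i⁆).map (MulAut.conj g).toMonoidHom ≤ ⁅L i, L i⁆ := by
      rw [Subgroup.map_commutator]
      have h3 : (L i).map (MulAut.conj g).toMonoidHom ≤ L i := by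
        rintro _ ⟨x, hx, rfl⟩
        exact (hLm i).nrm g hg x hx
      exact Subgroup.commutator_mono h3 h3
    exact h2 ⟨t, ht, rfl⟩
  have hcomm : ∀ i j : Ω, i ≠ j → ∀ a ∈ L i, ∀ b ∈ L j, a * b = b * a := fun i j hij a ha b hb =>
    commute_of_perfect (hLperf i) (fun t ht => hcommC i j hij t ht b hb) ha
  have hcent : Subgroup.centralizer ((⨆ ω, L ω : Subgroup G) : Set G) = Z := by
    rw [hsup]
    haveI : (Subgroup.centralizer (E : Set G)).Normal := Subgroup.normal_centralizer
    have hle : Z ≤ Subgroup.centralizer (E : Set G) := by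
      intro z hz
      rw [Subgroup.mem_centralizer_iff]
      intro e _
      exact Subgroup.mem_center_iff.1 (M.cen hz) e
    by_contra hcon
    have h1 := B.uniq _ inferInstance (lt_of_le_of_ne hle (Ne.symm hcon))
    have h2 : E ≤ Subgroup.centralizer (E : Set G) := hEY.trans h1
    apply hEc
    rw [← hperf, Subgroup.commutator_le]
    intro a ha b hb
    rw [commutatorElement_eq_one_iff_mul_comm.2 ((Subgroup.mem_centralizer_iff.1 (h2 hb)) a ha)]
    exact one_mem _
  -- normality of the sub-objects of `L i` under `E`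
  have hLE : ∀ (i : Ω) (S : Subgroup G), S ≤ L i → (∀ g ∈ L i, ∀ s ∈ S, g * s * g⁻¹ ∈ S) →
      ∀ g ∈ E, ∀ s ∈ S, g * s * g⁻¹ ∈ S := by
    intro i S hS hSn g hg
    have h1 : E ≤ Subgroup.normalizer (S : Set G) := by
      rw [← hsup]
      refine iSup_le fun j => ?_
      by_cases hij : i = j
      · subst hij
        intro x hx
        rw [Subgroup.mem_normalizer_iff]
        intro s
        constructor
        · intro hs
          exact hSn x hx s hs
        · intro hs
          have h2 := hSn x⁻¹ ((L i).inv_mem hx) _ hs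
          have h3 : x⁻¹ * (x * s * x⁻¹) * x⁻¹⁻¹ = s := by group
          rwa [h3] at h2
      · intro x hx
        rw [Subgroup.mem_normalizer_iff]
        intro s
        have h2 : ∀ t ∈ L i, x * t * x⁻¹ = t := by
          intro t ht
          rw [← hcomm i j hij t ht x hx, mul_inv_cancel_right]
        constructor
        · intro hs
          rw [h2 s (hS hs)]
          exact hs
        · intro hs
          have h3 := h2 _ (hS hs)
          have h4 : x * s * x⁻¹ = s := by
            have h5 : x * (x * s * x⁻¹) * x⁻¹ = x * s * x⁻¹ := h3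
            have h6 : x * s * x⁻¹ = s := by
              have h7 := congrArg (fun y => x⁻¹ * y * x) h5
              change x⁻¹ * (x * (x * s * x⁻¹) * x⁻¹) * x = x⁻¹ * (x * s * x⁻¹) * x at h7
              have h8 : x⁻¹ * (x * (x * s * x⁻¹) * x⁻¹) * x = x * s * x⁻¹ := by group
              have h9 : x⁻¹ * (x * s * x⁻¹) * x = s := by group
              rw [h8, h9] at h7
              exact h7
            exact h6
          rwa [h4] at hs
    intro s hs
    exact (Subgroup.mem_normalizer_iff.1 (h1 hg) s).1 hs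
  have hΩne : Nonempty Ω := ⟨⟨T, MulAction.mem_orbit_self T⟩⟩
  refine ⟨Ω, inferInstance, hΩne, inferInstance, L, M, B.nY, B.ZY, B.uniq, by rw [hsup]; exact hEZ, hLh, hcomm, hLperf,
    ?_, ?_, hcent, ?_, fun i j => MulAction.exists_smul_eq G i j, fun i j h => Subtype.ext h⟩
  · intro i h
    exact (hLm i).nc (h.trans M.cen)
  · intro i x hx h
    rw [← hcent, Subgroup.mem_centralizer_iff]
    intro e he
    have h1 : (⨆ ω, L ω) ≤ Subgroup.centralizer ({x} : Set G) := by
      refine iSup_le fun j y hy => ?_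
      rw [Subgroup.mem_centralizer_singleton_iff]
      by_cases hij : i = j
      · subst hij
        exact (h y hy).symm
      · exact (hcomm i j hij x hx y hy).symm
    have h2 := h1 he
    rw [Subgroup.mem_centralizer_singleton_iff] at h2
    exact h2
  · intro i S hS hSn hSZ
    refine (hLm i).min S ⟨hS.trans (hLm i).le, hLE i S hS hSn, ?_⟩ hS
    rw [hcz]
    exact hSZ

end

end Cfsg.Agent.H229.RIM
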