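import Mathlib
import Cfsg.Agent.H229.RIM.Comp
import Cfsg.Agent.H37.NX.Top

/-!
# S4816, case B: more than one component (helper229)
-/

set_option autoImplicit false
set_option linter.unusedSectionVars false
set_option linter.style.haveILetI false

open Cfsg
open scoped commutatorElement Pointwise

namespace Cfsg.Agent.H229.RIM

open Cfsg.Agent.Characters.Core Cfsg.Agent.Characters.Clifford Cfsg.Agent.H672
open Cfsg.Agent.H672.RM (over_lin_iff)
open Cfsg.Agent.H586.GW
open Cfsg.Agent.H229.NX MulAction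

universe u

/-- (Three) without the exception `6.A6`, `p = 5`. -/
def RowThree' (p : ℕ) : Prop :=
  ∀ {G : Type u} [Group G] [Finite G] (E : Subgroup G) (N : Subgroup E) (φ : N →* ℂˣ), E.Normal → QBad p N φ →
    (∀ n : E, n ∈ N → (n : G) ∈ Subgroup.center G) →
    ¬ (p = 5 ∧ Nat.card (E ⧸ Subgroup.center E) = 360 ∧ 6 ∣ Nat.card (Subgroup.center E)) →
    ∃ ψ : Fin 3 → E → ℂ, (∀ i, IsIrrCharacter E (ψ i)) ∧ (∀ i, ∀ n : N, ψ i n = ψ i 1 * φ n) ∧
      ∀ i j, i ≠ j → ∀ g : G, ¬ ∀ (x y : E), (y : G) = g * x * g⁻¹ → ψ i y = ψ j x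

/-- Two proportional irreducible characters are equal. -/
theorem eq_of_prop {A : Type*} [Group A] [Finite A] {a b : A → ℂ} (ha : IsIrrCharacter A a)
    (hb : IsIrrCharacter A b) (h : ∀ x, a x * b 1 = b x * a 1) : a = b := by
  classical
  letI := Fintype.ofFinite A
  by_contra hne
  have h1 : (b 1) • a = (a 1) • b := by
    funext x
    simp only [Pi.smul_apply, smul_eq_mul]
    rw [mul_comm, h x, mul_comm]
  have h2 := congrArg (fun f => classInner f b) h1
  simp only [classInner_smul_left, classInner_irr_ne ha hb hne, classInner_irr_self hb, mul_zero, mul_one] at h2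
  exact isIrr_apply_one_ne_zero ha h2.symm

theorem card_iSup_dvd {G : Type u} [Group G] {ι : Type*} [Fintype ι] (L : ι → Subgroup G)
    (hcomm : Pairwise fun i j => ∀ x y : G, x ∈ L i → y ∈ L j → Commute x y) :
    Nat.card (⨆ i, L i : Subgroup G) ∣ ∏ i, Nat.card (L i) := by
  classical
  have h1 : (Subgroup.noncommPiCoprod hcomm).range = ⨆ i, L i := Subgroup.noncommPiCoprod_range
  rw [← h1, ← Nat.card_pi]
  exact Subgroup.card_range_dvd _

section

variable {p : ℕ} [hp : Fact p.Prime] {G : Type u} [Group G] [Finite G] {Z Y : Subgroup G} {l : Z →* ℂˣ}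

/-- `G / Z = O^{p'}(G / Z)`. -/
theorem MinX.dvd_index (M : MinX p Z l) {N : Subgroup G} (hN : N.Normal) (hZN : Z ≤ N) (hNt : N ≠ ⊤) :
    p ∣ N.index := by
  by_contra hd
  obtain ⟨S, hS, a, ha, b, hb, hab⟩ := M.exists_pair
  have h1 := mem_of_not_dvd_index hN hd hS
  exact hab (M.low N hN hZN hNt S h1 hS a ha b hb)

/-- Irreducible characters of normal subgroups over `l`: the degree and the index of the stabilizer are prime to `p`. -/
theorem MinX.over_normal (M : MinX p Z l) (hY : Y.Normal) (hZY : Z ≤ Y) {χ : Y → ℂ} (hχ : IsIrrCharacter Y χ)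
    (hov : ∀ z (hz : z ∈ Z), χ ⟨z, hZY hz⟩ = χ 1 * l ⟨z, hz⟩) :
    RelP p Y.subtype χ ∧ ¬ p ∣ charDegree χ ∧ ¬ p ∣ (inertia Y χ).index := by
  haveI := M.zn
  have hcY : ∀ n, Subgroup.inclusion hZY n ∈ Subgroup.center Y := by
    intro n
    rw [Subgroup.mem_center_iff]
    intro g
    exact Subtype.ext (Subgroup.mem_center_iff.1 (M.cen n.2) (g : G))
  have h1 : Over (Subgroup.inclusion hZY) χ (lf l) := by
    rw [over_lin_iff _ hcY hχ]
    intro n
    exact hov n n.2
  have h2 : RelP p Y.subtype χ := M.rel.up Z (isIrr_lf l) (charDegree_lf l) Y hZY hχ h1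
  refine ⟨h2, ?_, h2.not_dvd_index Y hχ⟩
  have h3 := M.rel.normal Z (isIrr_lf l) Y hZY χ hχ h1
  rwa [charDegree_lf, mul_one] at h3

variable {Ω : Type u} [MulAction G Ω] {L : Ω → Subgroup G}

/-- The family of the components and `Z`. -/
def fam (Z : Subgroup G) (L : Ω → Subgroup G) : Option Ω → Subgroup G := fun i => i.elim Z L

namespace Comp

variable (C : Comp p Z Y l L)
include C

theorem le_Y (ω : Ω) : L ω ≤ Y := by
  rw [← C.sup]
  exact (le_iSup L ω).trans le_sup_left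

theorem mem_conj_iff {g x : G} {ω : Ω} : g * x * g⁻¹ ∈ L (g • ω) ↔ x ∈ L ω := by
  rw [C.conj, mem_conj]
  have h2 : g⁻¹ * (g * x * g⁻¹) * g = x := by group
  rw [h2]

theorem mem_conj_iff' {g x : G} {ω : Ω} : x ∈ L (g • ω) ↔ g⁻¹ * x * g ∈ L ω := by
  rw [C.conj, mem_conj]

theorem smul_of_mem {x : G} {ω ω' : Ω} (hx : x ∈ L ω) : x • ω' = ω' := by
  apply C.inj
  have h1 : ∀ y ∈ L ω', x * y * x⁻¹ ∈ L ω' := by
    intro y hy
    by_cases h : ω = ω'
    · subst h
      exact (L ω).mul_mem ((L ω).mul_mem hx hy) ((L ω).inv_mem hx)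
    · rw [C.comm ω ω' h x hx y hy, mul_inv_cancel_right]
      exact hy
  have h2 : ∀ y ∈ L ω', x⁻¹ * y * x ∈ L ω' := by
    intro y hy
    by_cases h : ω = ω'
    · subst h
      exact (L ω).mul_mem ((L ω).mul_mem ((L ω).inv_mem hx) hy) hx
    · rw [C.comm ω ω' h x⁻¹ ((L ω).inv_mem hx) y hy, mul_assoc, inv_mul_cancel, mul_one]
      exact hy
  ext y
  rw [C.mem_conj_iff']
  constructor
  · intro h
    have h3 := h1 _ h
    have h4 : x * (x⁻¹ * y * x) * x⁻¹ = y := by group
    rwa [h4] at h3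
  · exact h2 y

theorem smul_of_central {z : G} (hz : z ∈ Z) (ω : Ω) : z • ω = ω := by
  apply C.inj
  ext y
  rw [C.mem_conj_iff']
  have h1 := Subgroup.mem_center_iff.1 (C.min.cen hz) y
  rw [mul_assoc, h1, ← mul_assoc, inv_mul_cancel, one_mul]

theorem comm' : Pairwise fun i j : Option Ω => ∀ x y : G, x ∈ fam Z L i → y ∈ fam Z L j → Commute x y := by
  intro i j hij x y hx hy
  cases i with
  | none => exact (Subgroup.mem_center_iff.1 (C.min.cen hx) y).symm
  | some i =>
    cases j with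
    | none => exact Subgroup.mem_center_iff.1 (C.min.cen hy) x
    | some j => exact C.comm i j (fun h => hij (by rw [h])) x hx y hy

theorem sup' : Y = ⨆ i : Option Ω, fam Z L i := by
  rw [← C.sup, iSup_option, sup_comm]
  rfl

/-- **Product characters over `l`.** -/
theorem exists_prod [Fintype Ω] (ψ : ∀ ω, L ω → ℂ) (hψ : ∀ ω, IsIrrCharacter (L ω) (ψ ω))
    (hov : ∀ ω (x : G) (hx : x ∈ L ω) (hz : x ∈ Z), ψ ω ⟨x, hx⟩ = ψ ω 1 * l ⟨x, hz⟩) :
    ∃ χ : Y → ℂ, IsIrrCharacter Y χ ∧ (∀ z (hz : z ∈ Z), χ ⟨z, C.ZY.le hz⟩ = χ 1 * l ⟨z, hz⟩) ∧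
      χ 1 = ∏ ω, ψ ω 1 ∧ ∀ ω (x : G) (hx : x ∈ L ω) (hxY : x ∈ Y), χ ⟨x, hxY⟩ * ψ ω 1 = χ 1 * ψ ω ⟨x, hx⟩ := by
  classical
  let ψ' : ∀ i : Option Ω, ↥(fam Z L i) → ℂ := fun i =>
    match i with
    | none => lf l
    | some ω => ψ ω
  have h0 : lf l (1 : Z) = 1 := by rw [lf_apply, map_one, Units.val_one]
  obtain ⟨χ, hχ, h1, h2⟩ := exists_prodChar l (fam Z L) C.comm' (by
      intro i x hx h
      cases i with
      | none => exact hx
      | some ω => exact C.cen ω x hx h) ψ' (by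
      intro i
      cases i with
      | none => exact isIrr_lf l
      | some ω => exact hψ ω) (by
      intro i x hx hz
      cases i with
      | none =>
        change lf l ⟨x, hx⟩ = lf l 1 * l ⟨x, hz⟩
        rw [h0, one_mul, lf_apply]
      | some ω => exact hov ω x hx hz) C.sup'
  refine ⟨χ, hχ, fun z hz => ?_, ?_, fun ω x hx hxY => h2 (some ω) x hx hxY⟩
  · have h3 := h2 none z hz (C.ZY.le hz)
    change χ _ * lf l 1 = χ 1 * lf l ⟨z, hz⟩ at h3
    rwa [h0, mul_one, lf_apply] at h3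
  · rw [h1, Fintype.prod_option]
    change lf l 1 * _ = _
    rw [h0, one_mul]
    rfl

/-- conjugation between components -/
noncomputable def cjEquiv (ω₀ : Ω) (g : G) : L (g • ω₀) ≃* L ω₀ :=
  { toFun := fun x => ⟨g⁻¹ * x * g, C.mem_conj_iff'.1 x.2⟩
    invFun := fun y => ⟨g * y * g⁻¹, C.mem_conj_iff.2 y.2⟩
    left_inv := fun x => Subtype.ext (by change g * (g⁻¹ * x * g) * g⁻¹ = x; group)
    right_inv := fun x => Subtype.ext (by change g⁻¹ * (g * x * g⁻¹) * g = x; group)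
    map_mul' := fun x y => Subtype.ext (by change g⁻¹ * (x * y) * g = g⁻¹ * x * g * (g⁻¹ * y * g); group) }

/-- transport of a character of a component -/
theorem exists_trans (ω₀ ω : Ω) {g : G} (hg : g • ω₀ = ω) {θ : L ω₀ → ℂ} (hθ : IsIrrCharacter (L ω₀) θ)
    (hov : ∀ (x : G) (hx : x ∈ L ω₀) (hz : x ∈ Z), θ ⟨x, hx⟩ = θ 1 * l ⟨x, hz⟩) :
    ∃ ψ : L ω → ℂ, IsIrrCharacter (L ω) ψ ∧
      (∀ (x : G) (hx : x ∈ L ω) (hz : x ∈ Z), ψ ⟨x, hx⟩ = ψ 1 * l ⟨x, hz⟩) ∧ ψ 1 = θ 1 ∧
      ∀ (x y : G) (hx : x ∈ L ω₀) (hy : y ∈ L ω), y = g * x * g⁻¹ → ψ ⟨y, hy⟩ = θ ⟨x, hx⟩ := by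
  subst hg
  refine ⟨θ ∘ C.cjEquiv ω₀ g, isIrr_comp (C.cjEquiv ω₀ g).toMonoidHom (C.cjEquiv ω₀ g).surjective hθ, ?_, ?_, ?_⟩
  · intro x hx hz
    have h1 : ((C.cjEquiv ω₀ g ⟨x, hx⟩ : L ω₀) : G) = x := by
      change g⁻¹ * x * g = x
      rw [mul_assoc, ← Subgroup.mem_center_iff.1 (C.min.cen hz) g, ← mul_assoc, inv_mul_cancel, one_mul]
    have h2 : x ∈ L ω₀ := by rw [← h1]; exact (C.cjEquiv ω₀ g ⟨x, hx⟩).2
    have h3 : C.cjEquiv ω₀ g ⟨x, hx⟩ = ⟨x, h2⟩ := Subtype.ext h1
    simp only [Function.comp]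
    rw [h3, hov x h2 hz, map_one]
  · simp only [Function.comp, map_one]
  · intro x y hx hy h
    have h3 : C.cjEquiv ω₀ g ⟨y, hy⟩ = ⟨x, hx⟩ := by
      apply Subtype.ext
      change g⁻¹ * y * g = x
      rw [h]; group
    simp only [Function.comp]
    rw [h3]

/-- All characters of a component over `l` have degree prime to `p`. -/
theorem not_dvd_degree [Finite Ω] (ω₀ : Ω) {θ : L ω₀ → ℂ} (hθ : IsIrrCharacter (L ω₀) θ)
    (hov : ∀ (x : G) (hx : x ∈ L ω₀) (hz : x ∈ Z), θ ⟨x, hx⟩ = θ 1 * l ⟨x, hz⟩) : ¬ p ∣ charDegree θ := by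
  classical
  letI := Fintype.ofFinite Ω
  choose g hg using fun ω => C.tr ω₀ ω
  choose ψ h1 h2 h3 h4 using fun ω => C.exists_trans ω₀ ω (hg ω) hθ hov
  obtain ⟨χ, hχ, h5, h6, h7⟩ := C.exists_prod ψ h1 h2
  have h8 := (C.min.over_normal C.nY C.ZY.le hχ h5).2.1
  intro hd
  apply h8
  have h9 : ((charDegree χ : ℕ) : ℂ) = ((charDegree θ ^ Fintype.card Ω : ℕ) : ℂ) := by
    rw [coe_charDegree hχ, h6, Finset.prod_congr rfl fun ω _ => h3 ω, Finset.prod_const, Finset.card_univ,
      Nat.cast_pow, coe_charDegree hθ]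
  rw [Nat.cast_inj.1 h9]
  haveI : Nonempty Ω := ⟨ω₀⟩
  exact hd.trans (dvd_pow_self _ Fintype.card_ne_zero)

theorem card_L (ω ω' : Ω) : Nat.card (L ω) = Nat.card (L ω') := by
  obtain ⟨g, rfl⟩ := C.tr ω' ω
  exact Nat.card_congr (C.cjEquiv ω' g).toEquiv

theorem dvd_card [Finite Ω] (ω₀ : Ω) : p ∣ Nat.card (L ω₀) := by
  classical
  letI := Fintype.ofFinite Ω
  by_contra hd
  have h1 : ¬ p ∣ Nat.card Y := by
    intro h
    have h2 : Nat.card Y ∣ ∏ i : Option Ω, Nat.card (fam Z L i) := by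
      have := card_iSup_dvd (fam Z L) C.comm'
      rwa [← C.sup'] at this
    have h3 := h.trans h2
    rw [hp.out.prime.dvd_finsetProd_iff] at h3
    obtain ⟨i, -, hi⟩ := h3
    cases i with
    | none => exact C.min.pZ hi
    | some i =>
      apply hd
      rw [C.card_L ω₀ i]
      exact hi
  obtain ⟨y, hy, hyZ, hyp⟩ := C.min.exists_p_elt C.nY C.ZY
  apply h1
  have h2 : y ^ Nat.card Z ≠ 1 := by
    intro h
    exact hyZ (mem_of_pow C.min.cop hyp (by rw [h]; exact Z.one_mem))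
  have h3 : (y ^ Nat.card Z) ^ p = 1 := by
    rw [← pow_mul, mul_comm, pow_mul]
    exact pow_natCard_mem hyp
  have h4 : orderOf (y ^ Nat.card Z) = p := orderOf_eq_prime h3 h2
  rw [← h4]
  have h5 := orderOf_dvd_natCard (⟨y ^ Nat.card Z, Y.pow_mem hy _⟩ : Y)
  rwa [Subgroup.orderOf_mk] at h5

/-- The linear character of the preimage of `Z`. -/
def phi (l : Z →* ℂˣ) {A : Type*} [Group A] (f : A →* G) : Z.comap f →* ℂˣ :=
  l.comp ((f.comp (Z.comap f).subtype).codRestrict Z (fun x => x.2))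

end Comp

theorem phi_apply (l : Z →* ℂˣ) {A : Type*} [Group A] (f : A →* G) (x : Z.comap f) :
    Comp.phi l f x = l ⟨f x, x.2⟩ := rfl

namespace Comp

variable (C : Comp p Z Y l L)
include C

/-- A component is a bad quasi-simple group. -/
theorem qbad [Finite Ω] (him : Cfsg.Agent.H37.NX.IM.{u} p) (ω₀ : Ω) {A : Type u} [Group A] [Finite A] (f : A →* G)
    (hf : Function.Injective f) (hr : f.range = L ω₀) : QBad p (Z.comap f) (phi l f) := by
  classical
  have hfm : ∀ a, f a ∈ L ω₀ := fun a => by rw [← hr]; exact ⟨a, rfl⟩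
  let e : A ≃* L ω₀ := (MonoidHom.ofInjective hf).trans (MulEquiv.subgroupCongr hr)
  have he : ∀ a, ((e a : L ω₀) : G) = f a := fun a => rfl
  have hfe : ∀ x : L ω₀, f (e.symm x) = x := fun x => by rw [← he, MulEquiv.apply_symm_apply]
  have hcen : ∀ a, a ∈ Subgroup.center A ↔ f a ∈ Z := by
    intro a
    constructor
    · intro h
      refine C.cen ω₀ _ (hfm a) fun y hy => ?_
      rw [← hr] at hy
      obtain ⟨b, rfl⟩ := hy
      rw [← map_mul, ← map_mul, (Subgroup.mem_center_iff.1 h b)]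
    · intro h
      rw [Subgroup.mem_center_iff]
      intro b
      apply hf
      rw [map_mul, map_mul]
      exact Subgroup.mem_center_iff.1 (C.min.cen h) (f b)
  have hle : Z.comap f ≤ Subgroup.center A := fun a ha => (hcen a).2 ha
  have hbad : ∀ χ : A → ℂ, IsIrrCharacter A χ → (∀ z : Z.comap f, χ z = χ 1 * phi l f z) → ¬ p ∣ charDegree χ := by
    intro χ hχ hov
    have h1 : IsIrrCharacter (L ω₀) (χ ∘ e.symm) := isIrr_comp e.symm.toMonoidHom e.symm.surjective hχ
    have h2 := C.not_dvd_degree ω₀ h1 (by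
      intro x hx hz
      have h3 : f (e.symm ⟨x, hx⟩) = x := hfe ⟨x, hx⟩
      have h4 := hov ⟨e.symm ⟨x, hx⟩, by rw [Subgroup.mem_comap, h3]; exact hz⟩
      simp only [Function.comp, map_one]
      rw [h4, phi_apply]
      congr 2
      exact congrArg l (Subtype.ext h3))
    have h3 : charDegree (χ ∘ e.symm) = charDegree χ := by
      rw [Cfsg.Agent.Blocks.Basic.charDegree_def, Cfsg.Agent.Blocks.Basic.charDegree_def, Function.comp, map_one]
    rwa [h3] at h2
  have hperf : commutator A = ⊤ := by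
    apply Subgroup.map_injective hf
    rw [commutator_def, Subgroup.map_commutator, ← MonoidHom.range_eq_map, hr, C.perf]
  have hsimp : IsSimpleGroup (A ⧸ Subgroup.center A) := by
    haveI : Nontrivial (A ⧸ Subgroup.center A) := by
      rw [QuotientGroup.nontrivial_iff]
      intro h
      apply C.ne ω₀
      intro x hx
      rw [← hr] at hx
      obtain ⟨a, rfl⟩ := hx
      exact (hcen a).1 (by rw [h]; trivial)
    refine ⟨fun X hX => ?_⟩
    set X' : Subgroup A := X.comap (QuotientGroup.mk' (Subgroup.center A)) with hX'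
    have hX'n : X'.Normal := inferInstance
    by_cases hc : X'.map f ≤ Z
    · left
      rw [eq_bot_iff]
      intro y hy
      obtain ⟨x, rfl⟩ := QuotientGroup.mk'_surjective (Subgroup.center A) y
      rw [Subgroup.mem_bot]
      exact (QuotientGroup.eq_one_iff x).2 ((hcen x).2 (hc ⟨x, hy, rfl⟩))
    · right
      have h2 : X'.map f = L ω₀ := by
        refine C.mini ω₀ _ ?_ ?_ hc
        · rintro _ ⟨x, -, rfl⟩
          exact hfm x
        · rintro g hg _ ⟨x, hx, rfl⟩
          rw [← hr] at hg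
          obtain ⟨b, rfl⟩ := hg
          exact ⟨b * x * b⁻¹, hX'n.conj_mem x hx b, by rw [map_mul, map_mul, map_inv]⟩
      rw [eq_top_iff]
      intro y _
      obtain ⟨x, rfl⟩ := QuotientGroup.mk'_surjective (Subgroup.center A) y
      have h3 : f x ∈ X'.map f := by rw [h2]; exact hfm x
      obtain ⟨z, hz, hzx⟩ := h3
      have h4 : z = x := hf hzx
      subst h4
      exact hz
  have hcard : Nat.card A = Nat.card (L ω₀) := Nat.card_congr e.toEquiv
  have hpE : p ∣ Nat.card A := by rw [hcard]; exact C.dvd_card ω₀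
  have hpc : ¬ p ∣ Nat.card (Subgroup.center A) := by
    intro h
    apply C.min.pZ
    let j : Subgroup.center A →* Z := (f.comp (Subgroup.center A).subtype).codRestrict Z
      (fun x => (hcen x).1 x.2)
    have hj : Function.Injective j := by
      intro a b hab
      apply Subtype.ext
      apply hf
      exact congrArg Subtype.val hab
    exact h.trans (Subgroup.card_dvd_of_injective j hj)
  refine ⟨C.min.odd, hperf, hsimp, hpc, hpE, hle, ?_, ?_, hbad⟩
  · -- Ito-Michler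
    intro h0
    have h1 : ∀ χ : A → ℂ, IsIrrCharacter A χ → ¬ p ∣ charDegree χ := by
      intro χ hχ
      refine hbad χ hχ fun z => ?_
      have h2 : (z : A) = 1 := by
        have h5 : ∀ x, x ∈ Z.comap f → x = 1 := by
          intro x hx
          rw [h0, Subgroup.mem_bot] at hx
          exact hx
        exact h5 z z.2
      have h3 : phi l f z = 1 := by
        have : z = 1 := Subtype.ext h2
        rw [this, map_one]
      rw [h3, h2, Units.val_one, mul_one]
    obtain ⟨P, hP⟩ := him h1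
    -- a normal Sylow subgroup is central or everything
    have h2 : (P : Subgroup A) ≤ Subgroup.center A ∨ (P : Subgroup A) ⊔ Subgroup.center A = ⊤ := by
      haveI := hP
      rcases hsimp.eq_bot_or_eq_top_of_normal ((P : Subgroup A).map (QuotientGroup.mk' (Subgroup.center A)))
        (hP.map _ (QuotientGroup.mk'_surjective _)) with h | h
      · left
        rw [Subgroup.map_eq_bot_iff, QuotientGroup.ker_mk'] at h
        exact h
      · right
        have h3 := congrArg (Subgroup.comap (QuotientGroup.mk' (Subgroup.center A))) h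
        rw [Subgroup.comap_map_eq, QuotientGroup.ker_mk', Subgroup.comap_top] at h3
        exact h3
    have hPcard : p ∣ Nat.card (P : Subgroup A) := by
      have h3 : Nat.card (P : Subgroup A) * (P : Subgroup A).index = Nat.card A := Subgroup.card_mul_index _
      rw [← h3] at hpE
      exact (hp.out.dvd_mul.1 hpE).resolve_right P.not_dvd_index
    rcases h2 with h2 | h2
    · exact hpc (hPcard.trans (Subgroup.card_dvd_of_le h2))
    · -- `A / Z(A)` is a `p`-group and perfect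
      have hcz : ∀ a : A, ∃ x ∈ (P : Subgroup A), ∃ c ∈ Subgroup.center A, x * c = a := by
        intro a
        have : a ∈ (P : Subgroup A) ⊔ Subgroup.center A := by rw [h2]; trivial
        exact Subgroup.mem_sup_of_normal_right.1 this
      have h3 : commutator A ≤ (P : Subgroup A) := by
        rw [commutator_def, Subgroup.commutator_le]
        intro a _ b _
        obtain ⟨x, hx, c, hc, rfl⟩ := hcz a
        obtain ⟨y, hy, d, hd, rfl⟩ := hcz b
        have h4 : ⁅x * c, y * d⁆ = ⁅x, y⁆ := by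
          have hz' := Subgroup.mem_center_iff.1 hc
          have hw' := Subgroup.mem_center_iff.1 hd
          rw [commutatorElement_def, commutatorElement_def, mul_inv_rev, mul_inv_rev]
          calc x * c * (y * d) * (c⁻¹ * x⁻¹) * (d⁻¹ * y⁻¹)
              = x * (c * (y * d)) * c⁻¹ * x⁻¹ * d⁻¹ * y⁻¹ := by group
            _ = x * ((y * d) * c) * c⁻¹ * x⁻¹ * d⁻¹ * y⁻¹ := by rw [hz']
            _ = x * y * (d * x⁻¹ * d⁻¹) * y⁻¹ := by group
            _ = x * y * (x⁻¹ * d * d⁻¹) * y⁻¹ := by rw [← hw' x⁻¹]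
            _ = x * y * x⁻¹ * y⁻¹ := by group
        rw [h4, commutatorElement_def]
        exact mul_mem (mul_mem (mul_mem hx hy) (inv_mem hx)) (inv_mem hy)
      rw [hperf] at h3
      have h4 : IsPGroup p A := by
        intro a
        obtain ⟨k, hk⟩ := P.isPGroup' ⟨a, h3 (Subgroup.mem_top a)⟩
        exact ⟨k, congrArg Subtype.val hk⟩
      haveI : Nontrivial A := by
        by_contra hn
        rw [not_nontrivial_iff_subsingleton] at hn
        rw [Nat.card_eq_one_iff_unique.2 ⟨hn, ⟨1⟩⟩] at hpE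
        exact hp.out.one_lt.ne' (Nat.dvd_one.1 hpE)
      haveI := h4.isNilpotent
      haveI : Group.IsSolvable A := inferInstance
      exact (Group.IsSolvable.commutator_lt_top_of_nontrivial A).ne hperf
  · intro a b hab
    have h1 : (⟨f a, a.2⟩ : Z) = ⟨f b, b.2⟩ := C.min.inj hab
    apply Subtype.ext
    apply hf
    exact congrArg Subtype.val h1

/-- A labelling of the components with three colours whose stabilizer has index divisible by `p`. -/
theorem exists_label (P : Pow) [Finite Ω] [Nontrivial Ω] : ∃ c : Ω → Fin 3, p ∣ (colStab G c).index := by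
  classical
  let R : Subgroup (Equiv.Perm Ω) := (MulAction.toPermHom G Ω).range
  let q : G →* R := (MulAction.toPermHom G Ω).rangeRestrict
  have hq : Function.Surjective q := (MulAction.toPermHom G Ω).rangeRestrict_surjective
  have hqs : ∀ (g : G) (ω : Ω), q g • ω = g • ω := fun _ _ => rfl
  haveI : IsPretransitive R Ω := ⟨fun i j => by
    obtain ⟨g, hg⟩ := C.tr i j
    exact ⟨q g, hg⟩⟩
  obtain ⟨c, hc⟩ := label P (G := R) (Ω := Ω) hp.out (fun N hN hNt => by
    haveI := hN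
    rw [← Subgroup.index_comap_of_surjective N hq]
    refine C.min.dvd_index inferInstance ?_ ?_
    · intro z hz
      have h1 : q z = 1 := by
        apply Subtype.ext
        apply Equiv.ext
        intro ω
        exact C.smul_of_central hz ω
      change q z ∈ N
      rw [h1]
      exact N.one_mem
    · intro h
      apply hNt
      rw [eq_top_iff]
      intro x _
      obtain ⟨g, rfl⟩ := hq x
      have : g ∈ N.comap q := by rw [h]; trivial
      exact this)
  refine ⟨c, ?_⟩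
  have h1 : colStab G c = (colStab R c).comap q := by
    ext g
    exact Iff.rfl
  rw [h1, Subgroup.index_comap_of_surjective _ hq]
  exact hc

/-- Three characters of a component over `l`, pairwise not conjugate, are impossible if there are at least two
components. -/
theorem no_three (P : Pow) [Finite Ω] [Nontrivial Ω] (ω₀ : Ω) (θ : Fin 3 → L ω₀ → ℂ)
    (hθ : ∀ i, IsIrrCharacter (L ω₀) (θ i))
    (hov : ∀ i (x : G) (hx : x ∈ L ω₀) (hz : x ∈ Z), θ i ⟨x, hx⟩ = θ i 1 * l ⟨x, hz⟩)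
    (hne : ∀ i j, i ≠ j → ∀ g : G, g • ω₀ = ω₀ →
      ¬ ∀ (x y : G) (hx : x ∈ L ω₀) (hy : y ∈ L ω₀), y = g * x * g⁻¹ → θ i ⟨y, hy⟩ = θ j ⟨x, hx⟩) : False := by
  classical
  letI := Fintype.ofFinite Ω
  haveI := C.nY
  obtain ⟨c, hc⟩ := C.exists_label P
  choose g hg using fun ω => C.tr ω₀ ω
  choose ψ h1 h2 h3 h4 using fun ω => C.exists_trans ω₀ ω (hg ω) (hθ (c ω)) (hov (c ω))
  obtain ⟨χ, hχ, h5, h6, h7⟩ := C.exists_prod ψ h1 h2
  have h8 := (C.min.over_normal C.nY C.ZY.le hχ h5).2.2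
  apply h8
  refine hc.trans (Subgroup.index_dvd_of_le ?_)
  intro s hs
  rw [mem_colStab]
  intro ω
  by_contra hcol
  have hn : ((g (s • ω))⁻¹ * s * g ω) • ω₀ = ω₀ := by
    rw [mul_smul, mul_smul, hg, inv_smul_eq_iff, hg]
  apply hne (c (s • ω)) (c ω) hcol _ hn
  have hχ1 : χ 1 ≠ 0 := isIrr_apply_one_ne_zero hχ
  -- the conjugate character
  have hcj : ∀ x ∈ L ω₀, (g (s • ω))⁻¹ * s * g ω * x * ((g (s • ω))⁻¹ * s * g ω)⁻¹ ∈ L ω₀ := by
    intro x hx
    have := C.mem_conj_iff (g := (g (s • ω))⁻¹ * s * g ω) (x := x) (ω := ω₀)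
    rw [hn] at this
    exact this.2 hx
  let h := (g (s • ω))⁻¹ * s * g ω
  have key : ∀ x (hx : x ∈ L ω₀), θ (c (s • ω)) ⟨h * x * h⁻¹, hcj x hx⟩ * θ (c ω) 1 =
      θ (c ω) ⟨x, hx⟩ * θ (c (s • ω)) 1 := by
    intro x hx
    have hx' : g ω * x * (g ω)⁻¹ ∈ L ω := by
      have := C.mem_conj_iff (g := g ω) (x := x) (ω := ω₀)
      rw [hg] at this
      exact this.2 hx
    have hy' : s * (g ω * x * (g ω)⁻¹) * s⁻¹ ∈ L (s • ω) := C.mem_conj_iff.2 hx'
    have e1 := h7 ω _ hx' (C.le_Y ω hx')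
    have e2 := h7 (s • ω) _ hy' (C.le_Y _ hy')
    have e3 := h4 ω x _ hx hx' rfl
    have e4 := h4 (s • ω) (h * x * h⁻¹) _ (hcj x hx) hy' (by
      simp only [h]
      group)
    have e5 : χ ⟨s * (g ω * x * (g ω)⁻¹) * s⁻¹, C.le_Y _ hy'⟩ = χ ⟨g ω * x * (g ω)⁻¹, C.le_Y ω hx'⟩ :=
      mem_inertia_iff.1 hs ⟨_, C.le_Y ω hx'⟩
    rw [e3, h3] at e1
    rw [e4, h3, e5] at e2
    -- `χ a * θj 1 = χ 1 * θj x`, `χ a * θi 1 = χ 1 * θi y`
    apply mul_left_cancel₀ hχ1
    calc χ 1 * (θ (c (s • ω)) ⟨h * x * h⁻¹, hcj x hx⟩ * θ (c ω) 1)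
        = (χ 1 * θ (c (s • ω)) ⟨h * x * h⁻¹, hcj x hx⟩) * θ (c ω) 1 := by ring
      _ = (χ ⟨g ω * x * (g ω)⁻¹, C.le_Y ω hx'⟩ * θ (c (s • ω)) 1) * θ (c ω) 1 := by rw [e2]
      _ = (χ ⟨g ω * x * (g ω)⁻¹, C.le_Y ω hx'⟩ * θ (c ω) 1) * θ (c (s • ω)) 1 := by ring
      _ = (χ 1 * θ (c ω) ⟨x, hx⟩) * θ (c (s • ω)) 1 := by rw [e1]
      _ = χ 1 * (θ (c ω) ⟨x, hx⟩ * θ (c (s • ω)) 1) := by ring
  let e : L ω₀ ≃* L ω₀ :=
    { toFun := fun x => ⟨h * x * h⁻¹, hcj x x.2⟩
      invFun := fun x => ⟨h⁻¹ * x * h, by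
        have h9 := C.mem_conj_iff' (g := h) (x := (x : G)) (ω := ω₀)
        rw [show h • ω₀ = ω₀ from hn] at h9
        exact h9.1 x.2⟩
      left_inv := fun x => Subtype.ext (by change h⁻¹ * (h * x * h⁻¹) * h = x; group)
      right_inv := fun x => Subtype.ext (by change h * (h⁻¹ * x * h) * h⁻¹ = x; group)
      map_mul' := fun x y => Subtype.ext (by change h * (x * y) * h⁻¹ = h * x * h⁻¹ * (h * y * h⁻¹); group) }
  have hi : IsIrrCharacter (L ω₀) (θ (c (s • ω)) ∘ e) := isIrr_comp e.toMonoidHom e.surjective (hθ _)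
  have hij : θ (c (s • ω)) ∘ e = θ (c ω) := by
    refine eq_of_prop hi (hθ _) fun x => ?_
    have h9 := key x x.2
    simp only [Function.comp, map_one]
    exact h9
  intro x y hx hy hxy
  have h9 := congrFun hij ⟨x, hx⟩
  rw [← h9]
  subst hxy
  rfl

/-- **There is only one component**, unless `p = 5` and the components are `6.A6`. -/
theorem one_component (P : Pow) (him : Cfsg.Agent.H37.NX.IM.{u} p) (hT : RowThree'.{u} p) [Finite Ω] [Nontrivial Ω]
    (hex : ∀ ω : Ω, ¬ (p = 5 ∧ Nat.card (L ω ⧸ Subgroup.center (L ω)) = 360 ∧ 6 ∣ Nat.card (Subgroup.center (L ω)))) :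
    False := by
  classical
  obtain ⟨ω₀, -, -⟩ := exists_pair_ne Ω
  let Nm : Subgroup G := stabilizer G ω₀
  have hNm : ∀ g, g ∈ Nm ↔ g • ω₀ = ω₀ := fun g => mem_stabilizer_iff
  have hLN : L ω₀ ≤ Nm := fun x hx => C.smul_of_mem hx
  let E : Subgroup Nm := (L ω₀).subgroupOf Nm
  have hE : ∀ x : Nm, x ∈ E ↔ (x : G) ∈ L ω₀ := fun x => Subgroup.mem_subgroupOf
  have hEn : E.Normal := by
    refine ⟨fun x hx g => ?_⟩
    rw [hE] at hx ⊢
    have h1 := (C.mem_conj_iff (g := (g : G)) (x := (x : G)) (ω := ω₀)).2 hx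
    rw [(hNm g).1 g.2] at h1
    exact h1
  let f : E →* G := Nm.subtype.comp E.subtype
  have hf : Function.Injective f := Nm.subtype_injective.comp E.subtype_injective
  have hr : f.range = L ω₀ := by
    ext x
    constructor
    · rintro ⟨y, rfl⟩
      exact y.2
    · intro hx
      exact ⟨⟨⟨x, hLN hx⟩, hx⟩, rfl⟩
  have hQ := C.qbad him ω₀ f hf hr
  let e : L ω₀ ≃* E := ((MonoidHom.ofInjective hf).trans (MulEquiv.subgroupCongr hr)).symm
  have he : ∀ x : L ω₀, f (e x) = x := by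
    intro x
    have h1 : ∀ y : E, (((MonoidHom.ofInjective hf).trans (MulEquiv.subgroupCongr hr)) y : G) = f y := fun _ => rfl
    rw [← h1]
    exact congrArg Subtype.val (MulEquiv.apply_symm_apply _ x)
  have hc : Nat.card (Subgroup.center E) = Nat.card (Subgroup.center (L ω₀)) :=
    Nat.card_congr (Subgroup.centerCongr e.symm).toEquiv
  have hc2 : Nat.card (E ⧸ Subgroup.center E) = Nat.card (L ω₀ ⧸ Subgroup.center (L ω₀)) := by
    have h1 := Subgroup.card_mul_index (Subgroup.center E)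
    have h2 := Subgroup.card_mul_index (Subgroup.center (L ω₀))
    have h3 : Nat.card E = Nat.card (L ω₀) := Nat.card_congr e.symm.toEquiv
    rw [h3, ← h2, hc] at h1
    exact Nat.eq_of_mul_eq_mul_left Nat.card_pos h1
  obtain ⟨ψ, hψ, hov, hne⟩ := hT E (Z.comap f) (phi l f) hEn hQ (by
    intro n hn
    rw [Subgroup.mem_center_iff]
    intro g
    apply Subtype.ext
    exact Subgroup.mem_center_iff.1 (C.min.cen (show ((n : Nm) : G) ∈ Z from hn)) (g : G)) (by
    rw [hc, hc2]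
    exact hex ω₀)
  refine C.no_three P ω₀ (fun i => ψ i ∘ e) (fun i => isIrr_comp e.toMonoidHom e.surjective (hψ i)) ?_ ?_
  · intro i x hx hz
    have h1 : f (e ⟨x, hx⟩) = x := he ⟨x, hx⟩
    have h2 := hov i ⟨e ⟨x, hx⟩, by rw [Subgroup.mem_comap, h1]; exact hz⟩
    simp only [Function.comp, map_one]
    rw [h2, phi_apply]
    congr 2
    exact congrArg l (Subtype.ext h1)
  · intro i j hij g hg hcon
    apply hne i j hij ⟨g, (hNm g).2 hg⟩
    intro x y hxy
    have hx : f x ∈ L ω₀ := x.2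
    have hy : f y ∈ L ω₀ := y.2
    have h1 := hcon (f x) (f y) hx hy (congrArg Subtype.val hxy)
    have h2 : e ⟨f x, hx⟩ = x := hf (he ⟨f x, hx⟩)
    have h3 : e ⟨f y, hy⟩ = y := hf (he ⟨f y, hy⟩)
    simp only [Function.comp] at h1
    rwa [h2, h3] at h1

/-- One component: the output for `CaseB1`. -/
theorem caseB1 (him : Cfsg.Agent.H37.NX.IM.{u} p) [Subsingleton Ω] (ω₀ : Ω) : CaseB1 p Z (L ω₀) l := by
  classical
  haveI : Finite Ω := inferInstance
  have hsup : (⨆ ω, L ω) = L ω₀ := by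
    refine le_antisymm (iSup_le fun ω => ?_) (le_iSup L ω₀)
    rw [Subsingleton.elim ω ω₀]
  have hcen : ∀ z : L ω₀, z ∈ Subgroup.center (L ω₀) ↔ (z : G) ∈ Z := by
    intro z
    constructor
    · intro h
      refine C.cen ω₀ z z.2 fun y hy => ?_
      exact (congrArg Subtype.val (Subgroup.mem_center_iff.1 h ⟨y, hy⟩)).symm
    · intro h
      rw [Subgroup.mem_center_iff]
      intro y
      exact Subtype.ext (Subgroup.mem_center_iff.1 (C.min.cen h) y)
  have hQ := C.qbad him ω₀ (L ω₀).subtype (L ω₀).subtype_injective (L ω₀).range_subtype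
  refine ⟨C.min, ⟨fun x hx g => ?_⟩, hQ.perf, hQ.simp, ?_, hcen, ?_, ?_, C.dvd_card ω₀⟩
  · have h1 := (C.mem_conj_iff (g := g) (x := x) (ω := ω₀)).2 hx
    rwa [Subsingleton.elim (g • ω₀) ω₀] at h1
  · intro hc
    apply C.ne ω₀
    have h1 : commutator (L ω₀) ≤ Subgroup.center (L ω₀) := by
      rw [commutator_def, Subgroup.commutator_le]
      intro a _ b _
      rw [← QuotientGroup.eq_one_iff]
      change ⁅(a : L ω₀ ⧸ Subgroup.center (L ω₀)), (b : L ω₀ ⧸ Subgroup.center (L ω₀))⁆ = 1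
      rw [commutatorElement_eq_one_iff_mul_comm]
      exact hc.is_comm.comm _ _
    rw [hQ.perf] at h1
    intro x hx
    exact (hcen ⟨x, hx⟩).1 (h1 (Subgroup.mem_top _))
  · rw [← C.cent, hsup]
  · intro M hM hZM
    exact (C.le_Y ω₀).trans (C.uniq M hM hZM)

end Comp

/-- The exception of `RowThree`: `p = 5`, components `6.A6`. -/
def NoExc : Prop :=
  ∀ {G : Type u} [Group G] [Finite G] (Z Y : Subgroup G) (l : Z →* ℂˣ) {Ω : Type u} [MulAction G Ω] [Finite Ω]
    [Nontrivial Ω] (L : Ω → Subgroup G), Comp 5 Z Y l L →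
    (∀ ω : Ω, Nat.card (L ω ⧸ Subgroup.center (L ω)) = 360 ∧ 6 ∣ Nat.card (Subgroup.center (L ω))) → False

/-- **Case B.** -/
theorem noCaseB (P : Pow) (him : Cfsg.Agent.H37.NX.IM.{u} p) (hT : RowThree'.{u} p) (hX : p = 5 → NoExc.{u})
    (hB1 : NoCaseB1.{u} p) (B : CaseB p Z Y l) : False := by
  classical
  obtain ⟨Ω, i1, ⟨ω₀⟩, i2, L, C⟩ := B.exists_comp
  by_cases hΩ : Nontrivial Ω
  · by_cases hex : ∀ ω : Ω, ¬ (p = 5 ∧ Nat.card (L ω ⧸ Subgroup.center (L ω)) = 360 ∧
        6 ∣ Nat.card (Subgroup.center (L ω)))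
    · exact C.one_component P him hT hex
    · push Not at hex
      obtain ⟨ω, h5, h1, h2⟩ := hex
      subst h5
      refine hX rfl Z Y l L C fun ω' => ?_
      obtain ⟨g, rfl⟩ := C.tr ω ω'
      have e := C.cjEquiv ω g
      have hc : Nat.card (Subgroup.center (L (g • ω))) = Nat.card (Subgroup.center (L ω)) :=
        Nat.card_congr (Subgroup.centerCongr e).toEquiv
      have hc2 : Nat.card (L (g • ω) ⧸ Subgroup.center (L (g • ω))) = Nat.card (L ω ⧸ Subgroup.center (L ω)) := by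
        have h1 := Subgroup.card_mul_index (Subgroup.center (L (g • ω)))
        have h2 := Subgroup.card_mul_index (Subgroup.center (L ω))
        have h3 : Nat.card (L (g • ω)) = Nat.card (L ω) := Nat.card_congr e.toEquiv
        rw [h3, ← h2, hc] at h1
        exact Nat.eq_of_mul_eq_mul_left Nat.card_pos h1
      rw [hc, hc2]
      exact ⟨h1, h2⟩
  · haveI : Subsingleton Ω := not_nontrivial_iff_subsingleton.1 hΩ
    exact hB1 Z (L ω₀) l (C.caseB1 him ω₀)

end

end Cfsg.Agent.H229.RIM
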