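import Mathlib
import Cfsg.Agent.H229.RIM.CaseK

/-!
# S4816, case B: the stabilizer of a product character (helper229)

`Comp.exists_family` : the product character of a family `ψ ω ∈ Irr(L ω | l)` has the stabilizer
`{g | ∀ ω, ψ (g • ω) ∘ (conjugation by g) = ψ ω}`, and the index of this stabilizer is prime to `p`.
-/

set_option autoImplicit false
set_option linter.unusedSectionVars false
set_option linter.style.haveILetI false

open Cfsg
open scoped commutatorElement Pointwise

namespace Cfsg.Agent.H229.RIM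

open Cfsg.Agent.Characters.Core Cfsg.Agent.Characters.Clifford Cfsg.Agent.H672
open Cfsg.Agent.H672.RM (over_lin_iff)
open Cfsg.Agent.H586.GW
open Cfsg.Agent.H229.NX MulAction

universe u v

/-- Homomorphisms from a finite product which agree on the factors are equal. -/
theorem pi_hom_ext {G : Type u} [Group G] {ι : Type v} [Fintype ι] [DecidableEq ι] {A : ι → Type u}
    [∀ i, Group (A i)] (f g : (∀ i, A i) →* G)
    (h : ∀ i (y : A i), f (Pi.mulSingle i y) = g (Pi.mulSingle i y)) : f = g := by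
  have h1 : (⊤ : Subgroup (∀ i, A i)) ≤ MonoidHom.eqLocus f g := by
    intro x _
    have h2 := Finset.noncommProd_mulSingle x
    rw [← h2]
    refine Subgroup.noncommProd_mem _ _ ?_
    intro i _
    exact h i (x i)
  ext x
  exact h1 (Subgroup.mem_top x)

section

variable {p : ℕ} [hp : Fact p.Prime] {G : Type u} [Group G] [Finite G] {Z Y : Subgroup G} {l : Z →* ℂˣ}
  {Ω : Type u} [MulAction G Ω] {L : Ω → Subgroup G}

/-- **Product characters**, with the product formula. -/
theorem exists_prodChar' {ι : Type v} [Fintype ι] (l : Z →* ℂˣ) (L : ι → Subgroup G)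
    (hcomm : Pairwise fun i j => ∀ x y : G, x ∈ L i → y ∈ L j → Commute x y)
    (hcen : ∀ i, ∀ x ∈ L i, (∀ y ∈ L i, x * y = y * x) → x ∈ Z)
    (ψ : ∀ i, L i → ℂ) (hψ : ∀ i, IsIrrCharacter (L i) (ψ i))
    (hov : ∀ i (x : G) (hx : x ∈ L i) (hz : x ∈ Z), ψ i ⟨x, hx⟩ = ψ i 1 * l ⟨x, hz⟩)
    {Y : Subgroup G} (hY : Y = ⨆ i, L i) :
    ∃ χ : Y → ℂ, IsIrrCharacter Y χ ∧
      ∀ (x : ∀ i, L i) (y : Y), (y : G) = Subgroup.noncommPiCoprod hcomm x → χ y = ∏ i, ψ i (x i) := by
  classical
  let Φ : (∀ i, L i) →* G := Subgroup.noncommPiCoprod hcomm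
  have hΦr : Φ.range = Y := by rw [hY]; exact Subgroup.noncommPiCoprod_range
  have hΦs : ∀ i (y : L i), Φ (Pi.mulSingle i y) = y := fun i y => Subgroup.noncommPiCoprod_mulSingle i y
  let f : (∀ i, L i) →* Y := Φ.codRestrict Y (fun x => by rw [← hΦr]; exact ⟨x, rfl⟩)
  have hfc : ∀ x, (f x : G) = Φ x := fun _ => rfl
  have hf : Function.Surjective f := by
    rintro ⟨y, hy⟩
    rw [← hΦr] at hy
    obtain ⟨x, hx⟩ := hy
    exact ⟨x, Subtype.ext hx⟩
  have hF := Cfsg.Agent.H793.PC.isIrr_pi hψ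
  have hker : ∀ k, f k = 1 → (∏ i, ψ i (k i)) = ∏ i, ψ i ((1 : ∀ i, L i) i) := by
    intro k hk
    have hk' : Φ k = 1 := congrArg Subtype.val hk
    have hkZ : ∀ i, (k i : G) ∈ Z := by
      intro i
      refine hcen i _ (k i).2 fun y hy => ?_
      have h1 : k * Pi.mulSingle i ⟨y, hy⟩ * k⁻¹ * (Pi.mulSingle i ⟨y, hy⟩)⁻¹ =
          Pi.mulSingle i (k i * ⟨y, hy⟩ * (k i)⁻¹ * (⟨y, hy⟩ : L i)⁻¹) := by
        funext j
        by_cases hj : j = i
        · subst hj
          simp
        · simp [Pi.mulSingle_eq_of_ne hj]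
      have h2 := congrArg Φ h1
      rw [hΦs, map_mul, map_mul, map_mul, map_inv, map_inv, hk', hΦs, one_mul, inv_one, mul_one,
        mul_inv_cancel] at h2
      have h3 : (k i : G) * y * (k i : G)⁻¹ * y⁻¹ = 1 := h2.symm
      rw [mul_inv_eq_one, mul_inv_eq_iff_eq_mul] at h3
      exact h3
    have h1 : ∀ i, ψ i (k i) = ψ i ((1 : ∀ i, L i) i) * l ⟨k i, hkZ i⟩ := fun i =>
      hov i _ (k i).2 (hkZ i)
    rw [Finset.prod_congr rfl fun i _ => h1 i, Finset.prod_mul_distrib]
    have h2 := Subgroup.noncommPiCoprod_apply hcomm k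
    obtain ⟨h3, h4⟩ := exists_prod_mem l (fun i => (k i : G)) hkZ Finset.univ
      (fun i _ j _ h => hcomm h _ _ (k i).2 (k j).2)
    rw [← h4]
    have h5 : l ⟨_, h3⟩ = l 1 := congrArg l (Subtype.ext (h2.symm.trans hk'))
    rw [h5, map_one, Units.val_one, mul_one]
  obtain ⟨χ, hχ, hχf⟩ := exists_irr_of_ker f hf hF hker
  refine ⟨χ, hχ, fun x y hy => ?_⟩
  have h1 : f x = y := Subtype.ext hy.symm
  rw [← h1, ← hχf]

namespace Comp

variable (C : Comp p Z Y l L)
include C

/-- **The product character of a family and its stabilizer.** -/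
theorem exists_family [Finite Ω] [hYn : Y.Normal] (ψ : ∀ ω, L ω → ℂ) (hψ : ∀ ω, IsIrrCharacter (L ω) (ψ ω))
    (hov : ∀ ω (x : G) (hx : x ∈ L ω) (hz : x ∈ Z), ψ ω ⟨x, hx⟩ = ψ ω 1 * l ⟨x, hz⟩)
    (T : Subgroup G)
    (hT : ∀ g, g ∈ T ↔ ∀ ω (x y : G) (hx : x ∈ L ω) (hy : y ∈ L (g • ω)), y = g * x * g⁻¹ →
      ψ (g • ω) ⟨y, hy⟩ = ψ ω ⟨x, hx⟩) :
    ∃ χ : Y → ℂ, IsIrrCharacter Y χ ∧ (∀ z (hz : z ∈ Z), χ ⟨z, C.ZY.le hz⟩ = χ 1 * l ⟨z, hz⟩) ∧
      inertia Y χ = T ∧ ¬ p ∣ T.index ∧ (∃ f : Ω → ℕ, (∀ ω, ψ ω 1 = f ω) ∧ charDegree χ = ∏ᶠ ω, f ω) ∧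
      ∀ ω (x : G) (hx : x ∈ L ω) (hxY : x ∈ Y), χ ⟨x, hxY⟩ * ψ ω 1 = χ 1 * ψ ω ⟨x, hx⟩ := by
  classical
  letI := Fintype.ofFinite Ω
  let ψ' : ∀ i : Option Ω, ↥(fam Z L i) → ℂ := fun i =>
    match i with
    | none => lf l
    | some ω => ψ ω
  have h0 : lf l (1 : Z) = 1 := by rw [lf_apply, map_one, Units.val_one]
  obtain ⟨χ, hχ, h1⟩ := exists_prodChar' l (fam Z L) C.comm' (by
      intro i x hx h
      cases i with
      | none => exact hx
      | some ω => exact C.cen ω x hx h) ψ' (by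
      intro i
      cases i with
      | none => exact isIrr_lf l
      | some ω => exact hψ ω) (by
      intro i x hx hz
      cases i with
      | none =>
        change lf l ⟨x, hx⟩ = lf l 1 * l ⟨x, hz⟩
        rw [h0, one_mul, lf_apply]
      | some ω => exact hov ω x hx hz) C.sup'
  let Φ : (∀ i, fam Z L i) →* G := Subgroup.noncommPiCoprod C.comm'
  have hΦs : ∀ i (y : fam Z L i), Φ (Pi.mulSingle i y) = y := fun i y => Subgroup.noncommPiCoprod_mulSingle i y
  have hΦr : Φ.range = Y := by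
    rw [C.sup']
    exact Subgroup.noncommPiCoprod_range
  have hχ1 : χ 1 = ∏ i, ψ' i 1 := by
    have := h1 1 1 (by rw [map_one]; rfl)
    exact this
  have hsing : ∀ i (y : fam Z L i) (hyY : (y : G) ∈ Y), χ ⟨y, hyY⟩ * ψ' i 1 = χ 1 * ψ' i y := by
    intro i y hyY
    have h2 : χ ⟨y, hyY⟩ = ψ' i y * ∏ j ∈ Finset.univ.erase i, ψ' j 1 := by
      rw [h1 (Pi.mulSingle i y) ⟨y, hyY⟩ (hΦs i y).symm, ← Finset.mul_prod_erase Finset.univ _ (Finset.mem_univ i),
        Pi.mulSingle_eq_same]
      congr 1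
      refine Finset.prod_congr rfl fun j hj => ?_
      rw [Pi.mulSingle_eq_of_ne (Finset.ne_of_mem_erase hj)]
    rw [h2, hχ1, ← Finset.mul_prod_erase Finset.univ _ (Finset.mem_univ i)]
    ring
  have hz : ∀ z (hz : z ∈ Z), χ ⟨z, C.ZY.le hz⟩ = χ 1 * l ⟨z, hz⟩ := by
    intro z hz
    have h3 := hsing none ⟨z, hz⟩ (C.ZY.le hz)
    change χ _ * lf l 1 = χ 1 * lf l ⟨z, hz⟩ at h3
    rwa [h0, mul_one, lf_apply] at h3
  have hs : ∀ ω (x : G) (hx : x ∈ L ω) (hxY : x ∈ Y), χ ⟨x, hxY⟩ * ψ ω 1 = χ 1 * ψ ω ⟨x, hx⟩ :=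
    fun ω x hx hxY => hsing (some ω) ⟨x, hx⟩ hxY
  have hin : inertia Y χ = T := by
    apply le_antisymm
    · intro s hs'
      rw [hT]
      have hne := isIrr_apply_one_ne_zero hχ
      intro ω
      let e : L ω ≃* L (s • ω) := (C.cjEquiv ω s).symm
      have he : ∀ x, ((e x : L (s • ω)) : G) = s * x * s⁻¹ := fun _ => rfl
      have hi : IsIrrCharacter (L ω) (ψ (s • ω) ∘ e) := isIrr_comp e.toMonoidHom e.surjective (hψ _)
      have hij : ψ (s • ω) ∘ e = ψ ω := by
        refine eq_of_prop hi (hψ _) fun x => ?_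
        have hxY : (x : G) ∈ Y := C.le_Y ω x.2
        have hyY : ((e x : L (s • ω)) : G) ∈ Y := C.le_Y _ (e x).2
        have e1 := hs ω x x.2 hxY
        have e2 := hs (s • ω) _ (e x).2 hyY
        have e3 : χ ⟨_, hyY⟩ = χ ⟨x, hxY⟩ := mem_inertia_iff.1 hs' ⟨_, hxY⟩
        rw [e3] at e2
        simp only [Function.comp, map_one]
        apply mul_left_cancel₀ hne
        calc χ 1 * (ψ (s • ω) (e x) * ψ ω 1) = (χ 1 * ψ (s • ω) (e x)) * ψ ω 1 := by ring
          _ = (χ ⟨x, hxY⟩ * ψ (s • ω) 1) * ψ ω 1 := by rw [e2]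
          _ = (χ ⟨x, hxY⟩ * ψ ω 1) * ψ (s • ω) 1 := by ring
          _ = (χ 1 * ψ ω x) * ψ (s • ω) 1 := by rw [e1]
          _ = χ 1 * (ψ ω x * ψ (s • ω) 1) := by ring
      intro x y hx hy hxy
      have h9 := congrFun hij ⟨x, hx⟩
      rw [← h9]
      subst hxy
      rfl
    · intro g hg
      rw [hT] at hg
      rw [mem_inertia_iff]
      intro n
      have hn : (n : G) ∈ Φ.range := by rw [hΦr]; exact n.2
      obtain ⟨x, hx⟩ := hn
      -- the action of `g` on the index set
      let σ : Option Ω → Option Ω := fun i => i.map (fun ω => g • ω)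
      let σ' : Option Ω → Option Ω := fun i => i.map (fun ω => g⁻¹ • ω)
      have hσ : ∀ i, σ (σ' i) = i := by
        intro i
        cases i with
        | none => rfl
        | some ω => exact congrArg some (smul_inv_smul g ω)
      have hσ' : ∀ i, σ' (σ i) = i := by
        intro i
        cases i with
        | none => rfl
        | some ω => exact congrArg some (inv_smul_smul g ω)
      have hmem : ∀ i (y : G), y ∈ fam Z L i → g * y * g⁻¹ ∈ fam Z L (σ i) := by
        intro i y hy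
        cases i with
        | none =>
          have h9 : y ∈ Z := hy
          exact C.min.zn.conj_mem y h9 g
        | some ω => exact C.mem_conj_iff.2 hy
      have hmem' : ∀ i (y : G), y ∈ fam Z L (σ' i) → g * y * g⁻¹ ∈ fam Z L i := by
        intro i y hy
        have := hmem (σ' i) y hy
        rwa [hσ] at this
      let Θ : (∀ i, fam Z L i) →* (∀ i, fam Z L i) :=
        { toFun := fun x i => ⟨g * x (σ' i) * g⁻¹, hmem' i _ (x (σ' i)).2⟩
          map_one' := by
            funext i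
            apply Subtype.ext
            change g * (1 : G) * g⁻¹ = 1
            group
          map_mul' := fun x y => by
            funext i
            apply Subtype.ext
            change g * ((x (σ' i) : G) * (y (σ' i) : G)) * g⁻¹ = g * x (σ' i) * g⁻¹ * (g * y (σ' i) * g⁻¹)
            group }
      have hcomp : Φ.comp Θ = (MulAut.conj g).toMonoidHom.comp Φ := by
        apply pi_hom_ext
        intro i y
        have h4 : Θ (Pi.mulSingle i y) = Pi.mulSingle (σ i) ⟨g * y * g⁻¹, hmem i y y.2⟩ := by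
          funext j
          apply Subtype.ext
          change g * ((Pi.mulSingle i y : ∀ i, fam Z L i) (σ' j) : G) * g⁻¹ = _
          by_cases hj : σ' j = i
          · have hj' : j = σ i := by rw [← hj, hσ]
            subst hj'
            rw [Pi.mulSingle_eq_same]
            have h5 : ∀ k (h : k = i), ((Pi.mulSingle i y : ∀ i, fam Z L i) k : G) = y := by
              intro k h
              subst h
              rw [Pi.mulSingle_eq_same]
            rw [h5 _ hj]
          · have hj' : j ≠ σ i := by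
              rintro rfl
              exact hj (hσ' i)
            rw [Pi.mulSingle_eq_of_ne hj', Pi.mulSingle_eq_of_ne hj]
            change g * (1 : G) * g⁻¹ = 1
            group
        rw [MonoidHom.comp_apply, h4, hΦs, MonoidHom.comp_apply, hΦs]
        rfl
      have h5 : Φ (Θ x) = g * n * g⁻¹ := by
        have := DFunLike.congr_fun hcomp x
        rw [MonoidHom.comp_apply, MonoidHom.comp_apply] at this
        rw [this, hx]
        rfl
      rw [h1 x n hx.symm, h1 (Θ x) ⟨g * n * g⁻¹, hYn.conj_mem n n.2 g⟩ h5.symm]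
      let eσ : Option Ω ≃ Option Ω := ⟨σ, σ', hσ', hσ⟩
      rw [← Equiv.prod_comp eσ]
      refine Finset.prod_congr rfl fun i _ => ?_
      have h6 : ∀ k (h : k = i) (y : fam Z L (σ i)), (y : G) = g * x k * g⁻¹ → ψ' (σ i) y = ψ' i (x i) := by
        intro k h y hy
        subst h
        cases k with
        | none =>
          change lf l y = lf l (x none)
          have h7 : (y : G) = x none := by
            rw [hy]
            have h8 : ((x none : fam Z L none) : G) ∈ Z := (x none).2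
            rw [Subgroup.mem_center_iff.1 (C.min.cen h8) g, mul_inv_cancel_right]
          congr 1
          exact Subtype.ext h7
        | some ω => exact hg ω (x (some ω)) y (x (some ω)).2 y.2 hy
      exact h6 (σ' (σ i)) (hσ' i) (Θ x (σ i)) rfl
  refine ⟨χ, hχ, hz, hin, ?_, ?_, hs⟩
  · rw [← hin]
    exact (C.min.over_normal hYn C.ZY.le hχ hz).2.2
  · refine ⟨fun ω => charDegree (ψ ω), fun ω => (coe_charDegree (hψ ω)).symm, ?_⟩
    rw [finprod_eq_prod_of_fintype]
    have h9 : ((charDegree χ : ℕ) : ℂ) = ((∏ ω, charDegree (ψ ω) : ℕ) : ℂ) := by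
      rw [coe_charDegree hχ, hχ1, Fintype.prod_option, Nat.cast_prod]
      change lf l 1 * _ = _
      rw [h0, one_mul]
      refine Finset.prod_congr rfl fun ω _ => ?_
      exact (coe_charDegree (hψ ω)).symm
    exact Nat.cast_injective h9

end Comp

end

end Cfsg.Agent.H229.RIM
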