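import Mathlib
import Cfsg.Agent.H229.RIM.Defs
import Cfsg.Agent.H229.NX.LayerC
import Cfsg.Agent.H229.NX.Skel

/-!
# S4816, case A: the trichotomy of the primitive case

`noCoreP_of_layers`: from the layers (I), (A), (B) to the non-existence of the core situation of case A.
-/

set_option autoImplicit false
set_option linter.unusedSectionVars false
set_option linter.style.haveILetI false

open Cfsg
open scoped commutatorElement Pointwise

namespace Cfsg.Agent.H229.RIM

open Cfsg.Agent.H511.Wt MulAction Cfsg.Agent.H229.NX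
open Cfsg.Agent.Schreier.Basic (Sch)

universe u

section cyc

variable {H V : Type*} [Group H] [Finite H] [AddCommGroup V] [Finite V] [DistribMulAction H V]

theorem isCyclic_quot {M R : Type*} [Group M] [Finite M] [CommRing R] [IsDomain R] (f : M →* R) :
    IsCyclic (M ⧸ f.ker) := by
  refine isCyclic_of_injective_ringHom (R := R) (QuotientGroup.lift f.ker f le_rfl) ?_
  rw [injective_iff_map_eq_one]
  intro x hx
  obtain ⟨x, rfl⟩ := QuotientGroup.mk'_surjective f.ker x
  exact (QuotientGroup.eq_one_iff _).2 (MonoidHom.mem_ker.2 hx)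

theorem exists_gen_of_hom {M R : Type*} [Group M] [Finite M] [CommRing R] [IsDomain R] (f : M →* R) :
    ∃ g : M, ∀ m : M, ∃ k : ℤ, f (m * (g ^ k)⁻¹) = 1 := by
  obtain ⟨g, hg⟩ := (isCyclic_quot f).exists_generator
  obtain ⟨g, rfl⟩ := QuotientGroup.mk'_surjective f.ker g
  refine ⟨g, fun m => ?_⟩
  obtain ⟨k, hk⟩ := Subgroup.mem_zpowers_iff.1 (hg (m : M ⧸ f.ker))
  refine ⟨k, ?_⟩
  have h1 : ((m * (g ^ k)⁻¹ : M) : M ⧸ f.ker) = 1 := by
    rw [QuotientGroup.mk_mul, QuotientGroup.mk_inv, QuotientGroup.mk_zpow, ← hk]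
    exact mul_inv_cancel _
  rwa [QuotientGroup.eq_one_iff, MonoidHom.mem_ker] at h1

/-- A normal abelian subgroup of a primitive linear group is cyclic modulo the kernel. -/
theorem exists_gen_mod (hirr : Irr H V) (hni : ¬ ImpP H V) {N : Subgroup H}
    (ker : ∀ h : H, (∀ v : V, h • v = v) ↔ h ∈ N) {M : Subgroup H} (hM : M.Normal)
    (hab : ∀ a ∈ M, ∀ b ∈ M, a * b = b * a) : ∃ g ∈ M, ∀ m ∈ M, ∃ k : ℤ, m * (g ^ k)⁻¹ ∈ N := by
  have hc : ∀ a ∈ RR V M, ∀ b ∈ RR V M, a * b = b * a := by
    intro a ha b hb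
    refine commute_RR (M := M) (fun g hg => ?_) ha
    refine (commute_RR (M := M) (fun k hk => ?_) hb).symm
    rw [← map_mul, ← map_mul, hab k hk g hg]
  have hF : IsField (RR V M) := isField_subring hirr hni (RR V M) hc (nrm_RR hM)
  let f : M →* RR V M :=
    { toFun := fun m => ⟨toE V (m : H), toE_mem_RR m.2⟩
      map_one' := Subtype.ext (map_one _)
      map_mul' := fun a b => Subtype.ext (map_mul _ _ _) }
  have hfk : ∀ m : M, f m = 1 → (m : H) ∈ N := by
    intro m h
    rw [← ker]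
    intro v
    have h1 := congrArg Subtype.val h
    exact DFunLike.congr_fun h1 v
  obtain ⟨g, hg⟩ := @exists_gen_of_hom M (RR V M) _ _
    { (inferInstance : Ring (RR V M)) with mul_comm := hF.mul_comm } hF.isDomain f
  refine ⟨g, g.2, fun m hm => ?_⟩
  obtain ⟨k, hk⟩ := hg ⟨m, hm⟩
  exact ⟨k, hfk _ hk⟩

/-- A normal abelian subgroup of a perfect primitive linear group is central. -/
theorem central_of_abelian (hirr : Irr H V) (hni : ¬ ImpP H V) {N : Subgroup H} (perf : commutator H = ⊤)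
    (cen : N ≤ Subgroup.center H) (ker : ∀ h : H, (∀ v : V, h • v = v) ↔ h ∈ N) {M : Subgroup H} (hM : M.Normal)
    (hab : ∀ a ∈ M, ∀ b ∈ M, a * b = b * a) : M ≤ Subgroup.center H := by
  haveI : N.Normal := by
    refine ⟨fun n hn g => ?_⟩
    have h := Subgroup.mem_center_iff.1 (cen hn) g
    rwa [h, mul_inv_cancel_right]
  obtain ⟨g, hg, hgen'⟩ := exists_gen_mod hirr hni ker hM hab
  -- the centralizer of `M / N`
  let q := QuotientGroup.mk' N
  let C₀ : Subgroup H := (Subgroup.centralizer ({q g} : Set (H ⧸ N))).comap q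
  have hC₀ : ∀ h, h ∈ C₀ ↔ q g * q h = q h * q g := by
    intro h
    rw [Subgroup.mem_comap, Subgroup.mem_centralizer_singleton_iff]
    exact ⟨fun h => h.symm, fun h => h.symm⟩
  have hpow : ∀ h : H, ∃ k : ℤ, q h * q g * (q h)⁻¹ = q g ^ k := by
    intro h
    obtain ⟨k, hk⟩ := hgen' (h * g * h⁻¹) (hM.conj_mem g hg h)
    refine ⟨k, ?_⟩
    have h1 : q (h * g * h⁻¹ * (g ^ k)⁻¹) = 1 := (QuotientGroup.eq_one_iff _).2 hk
    rw [map_mul, map_inv, mul_inv_eq_one, map_mul, map_mul, map_inv, map_zpow] at h1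
    exact h1
  have hcomm : ∀ a b : H, ⁅a, b⁆ ∈ C₀ := by
    intro a b
    rw [hC₀]
    obtain ⟨i, hi⟩ := hpow a⁻¹
    obtain ⟨j, hj⟩ := hpow b⁻¹
    rw [map_inv, inv_inv] at hi hj
    have e1 : (q (b * a))⁻¹ * q g * q (b * a) = q g ^ (j * i) := by
      rw [map_mul, mul_inv_rev]
      calc (q a)⁻¹ * (q b)⁻¹ * q g * (q b * q a) = (q a)⁻¹ * ((q b)⁻¹ * q g * q b) * q a := by group
        _ = (q a)⁻¹ * (q g ^ j) * q a := by rw [hj]
        _ = ((q a)⁻¹ * q g * q a) ^ j := by
            have h := conj_zpow (i := j) (b := q g) (a := (q a)⁻¹)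
            rw [inv_inv] at h
            exact h.symm
        _ = q g ^ (j * i) := by rw [hi, ← zpow_mul, mul_comm]
    have e2 : (q (a * b))⁻¹ * q g * q (a * b) = q g ^ (j * i) := by
      rw [map_mul, mul_inv_rev]
      calc (q b)⁻¹ * (q a)⁻¹ * q g * (q a * q b) = (q b)⁻¹ * ((q a)⁻¹ * q g * q a) * q b := by group
        _ = (q b)⁻¹ * (q g ^ i) * q b := by rw [hi]
        _ = ((q b)⁻¹ * q g * q b) ^ i := by
            have h := conj_zpow (i := i) (b := q g) (a := (q b)⁻¹)
            rw [inv_inv] at h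
            exact h.symm
        _ = q g ^ (j * i) := by rw [hj, ← zpow_mul]
    have h1 : ⁅a, b⁆ = (a * b) * (b * a)⁻¹ := by rw [commutatorElement_def]; group
    rw [h1, map_mul, map_inv]
    have e3 : q g * q (a * b) = q (a * b) * q g ^ (j * i) := by
      rw [← e2]; group
    have e5 : (q (b * a))⁻¹ * q g = q g ^ (j * i) * (q (b * a))⁻¹ := by
      rw [← e1]; group
    rw [← mul_assoc, e3, mul_assoc, mul_assoc, ← e5]
  have htop : C₀ = ⊤ := by
    rw [eq_top_iff, ← perf, commutator_def, Subgroup.commutator_le]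
    exact fun a _ b _ => hcomm a b
  intro m hm
  refine Cfsg.Agent.H20.NX.mem_center_of_perfect perf cen fun k => ?_
  obtain ⟨i, hi⟩ := hgen' m hm
  have h1 : q m = q g ^ i := by
    have h := (QuotientGroup.eq_one_iff _).2 hi
    change q (m * (g ^ i)⁻¹) = 1 at h
    rw [map_mul, map_inv, mul_inv_eq_one, map_zpow] at h
    exact h
  have h2 := (hC₀ k).1 (by rw [htop]; trivial)
  have h3 : Commute (q m) (q k) := by
    rw [h1]
    exact (show Commute (q g) (q k) from h2).zpow_left i
  have h4 : q ⁅m, k⁆ = 1 := by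
    rw [map_commutatorElement, commutatorElement_eq_one_iff_commute]
    exact h3
  exact (QuotientGroup.eq_one_iff _).1 h4

end cyc

section main

/-- **The assembly of case A.** -/
theorem noCoreP_of_layers (P : Pow) {p : ℕ} [hp : Fact p.Prime]
    (hSch : ∀ (S : Type u) [Group S] [Finite S], IsSimpleGroup S → ¬ IsMulCommutative S → Sch S)
    (hI : LayerIP.{u} p) (hA : LayerAP.{u} p) (hB : LayerBP.{u} p) : NoCoreP.{u} p := by
  classical
  intro H V _ _ _ _ _ K N φ C
  have hni : ¬ ImpP H V := hI K N φ C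
  have hirr : Irr H V := ⟨C.nt, C.irr⟩
  have hab : ∀ M : Subgroup H, M.Normal → (∀ a ∈ M, ∀ b ∈ M, a * b = b * a) → M ≤ Subgroup.center H :=
    fun M hM hc => central_of_abelian hirr hni C.perf C.cen C.ker hM hc
  have hcenK : Subgroup.center H ≤ K := by
    refine C.maxK _ inferInstance ?_
    intro h
    apply C.Kt
    rw [eq_top_iff, ← C.perf, commutator_def, Subgroup.commutator_le]
    intro a _ b _
    have h1 : a ∈ Subgroup.center H := by rw [h]; trivial
    rw [commutatorElement_eq_one_iff_mul_comm.2 (Subgroup.mem_center_iff.1 h1 b).symm]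
    exact one_mem K
  have hnc : ¬ (⊤ : Subgroup H) ≤ Subgroup.center H := by
    intro h
    apply C.Kt
    rw [eq_top_iff]
    exact h.trans hcenK
  -- a minimal non-central normal subgroup
  obtain ⟨E, ⟨hEn, hEc⟩, hEmin⟩ := Set.Finite.exists_minimalFor (fun S : Subgroup H => S)
    {T : Subgroup H | T.Normal ∧ ¬ T ≤ Subgroup.center H} (Set.toFinite _) ⟨⊤, inferInstance, hnc⟩
  have hmin : ∀ M : Subgroup H, M.Normal → M < E → M ≤ Subgroup.center H := by
    intro M hM hME
    by_contra hc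
    exact hME.not_ge (hEmin ⟨hM, hc⟩ hME.le)
  have hmin' : ∀ M : Subgroup H, M.Normal → M ≤ E → ¬ M ≤ Subgroup.center H → M = E := fun M hM hME hc =>
    le_antisymm hME (hEmin ⟨hM, hc⟩ hME)
  by_cases hEt : E = ⊤
  · subst hEt
    refine hA K N φ C hni ?_
    exact hmin K C.nK (lt_top_iff_ne_top.2 C.Kt)
  have hEK : E ≤ K := C.maxK E hEn hEt
  by_cases hcls : ⁅E, E⁆ ≤ Subgroup.center H
  · exact hB K N φ C hni hab E hEn hEK hEc hmin hcls
  -- `E` is perfect
  have hperf : ⁅E, E⁆ = E := hmin' _ inferInstance (Subgroup.commutator_le_right E E) hcls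
  obtain ⟨T, hT⟩ := exists_minC hEc
  letI act : MulAction H (Subgroup H) := MulAction.compHom (Subgroup H) (MulAut.conj : H →* MulAut H)
  have hact : ∀ (h : H) (S : Subgroup H), h • S = MulAut.conj h • S := fun _ _ => rfl
  let Ω : Type u := MulAction.orbit H T
  let L : Ω → Subgroup H := fun ω => ω.1
  have hLm : ∀ ω : Ω, MinC E (L ω) := by
    rintro ⟨S, h, rfl⟩
    exact hT.conj hEn h
  have hLh : ∀ (h : H) (ω : Ω), L (h • ω) = MulAut.conj h • L ω := fun _ _ => rfl
  have hsup : (⨆ ω, L ω) = E := by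
    refine hmin' _ ?_ (iSup_le fun ω => (hLm ω).le) ?_
    · refine ⟨fun n hn g => ?_⟩
      have h1 : (⨆ ω, L ω) ≤ (⨆ ω, L ω).comap (MulAut.conj g).toMonoidHom := by
        refine iSup_le fun ω x hx => ?_
        rw [Subgroup.mem_comap]
        refine (le_iSup L (g • ω)) ?_
        rw [hLh, mem_conj]
        change g⁻¹ * (g * x * g⁻¹) * g ∈ L ω
        have h2 : g⁻¹ * (g * x * g⁻¹) * g = x := by group
        rwa [h2]
      exact h1 hn
    · intro hc
      exact hT.nc ((le_iSup L ⟨T, MulAction.mem_orbit_self T⟩).trans hc)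
  have hcommC : ∀ i j : Ω, i ≠ j → ∀ a ∈ L i, ∀ b ∈ L j, ⁅a, b⁆ ∈ Subgroup.center H :=
    fun i j hij a ha b hb => (hLm i).comm_mem (hLm j) (fun h => hij (Subtype.ext h)) ha hb
  -- `L i` is perfect
  have hLperf : ∀ i : Ω, ⁅L i, L i⁆ = L i := by
    intro i
    have h1 : ¬ ⁅L i, L i⁆ ≤ Subgroup.center H := by
      intro hc
      apply hcls
      rw [← hsup]
      refine commutator_iSup_le L fun j k a ha b hb => ?_
      by_cases hjk : j = k
      · subst hjk
        obtain ⟨h, rfl⟩ := MulAction.exists_smul_eq H i j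
        rw [hLh, mem_conj] at ha hb
        have h2 := hc (Subgroup.commutator_mem_commutator ha hb)
        have h3 := (inferInstance : (Subgroup.center H).Normal).conj_mem _ h2 h
        have h4 : h * ⁅h⁻¹ * a * h, h⁻¹ * b * h⁆ * h⁻¹ = ⁅a, b⁆ := by
          simp only [commutatorElement_def]; group
        rwa [h4] at h3
      · exact hcommC j k hjk a ha b hb
    refine (hLm i).min _ ⟨(Subgroup.commutator_le_self _).trans (hLm i).le, fun g hg t ht => ?_, h1⟩
      (Subgroup.commutator_le_self _)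
    have h2 : (⁅L i, L i⁆).map (MulAut.conj g).toMonoidHom ≤ ⁅L i, L i⁆ := by
      rw [Subgroup.map_commutator]
      have h3 : (L i).map (MulAut.conj g).toMonoidHom ≤ L i := by
        rintro _ ⟨x, hx, rfl⟩
        exact (hLm i).nrm g hg x hx
      exact Subgroup.commutator_mono h3 h3
    exact h2 ⟨t, ht, rfl⟩
  have hcomm : ∀ i j : Ω, i ≠ j → ∀ a ∈ L i, ∀ b ∈ L j, a * b = b * a := fun i j hij a ha b hb =>
    commute_of_perfect (hLperf i) (fun t ht => hcommC i j hij t ht b hb) ha
  by_cases hΩ : Nontrivial Ω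
  · -- permuted components
    refine layerC (Ω := Ω) (H := H) (V := V) P (p := p) (q := p) C.odd hirr hni L ?_ hcomm C.exp ?_ ?_ ?_
      C.P1
    · intro h i g hg
      rw [hLh, mem_conj]
      have h2 : h⁻¹ * (h * g * h⁻¹) * h = g := by group
      rwa [h2]
    · intro i
      refine Nat.Coprime.symm ((Nat.Prime.coprime_iff_not_dvd hp.out).2 fun h => C.pK ?_)
      exact h.trans (Subgroup.card_dvd_of_le ((hLm i).le.trans hEK))
    · intro i
      by_contra hcon
      push Not at hcon
      apply (hLm i).nc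
      rw [← hLperf i, Subgroup.commutator_le]
      intro a ha b hb
      apply C.cen
      rw [← C.ker]
      intro v
      have h1 := hcon a ha b hb (a⁻¹ • b⁻¹ • v)
      rw [commutatorElement_def]
      simp only [mul_smul]
      rw [h1, smul_inv_smul, smul_inv_smul]
    · intro M hM hMt
      have h1 : p ∣ K.index := C.pS
      exact h1.trans (Subgroup.index_dvd_of_le (C.maxK M hM hMt))
  · -- a normal quasi-simple subgroup
    have hTn : T.Normal := by
      rw [not_nontrivial_iff_subsingleton] at hΩ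
      refine ⟨fun n hn g => ?_⟩
      have h1 : (⟨T, MulAction.mem_orbit_self T⟩ : Ω) = g • (⟨T, MulAction.mem_orbit_self T⟩ : Ω) :=
        Subsingleton.elim _ _
      have h2 : T = MulAut.conj g • T := congrArg Subtype.val h1
      rw [h2, mem_conj]
      have h3 : g⁻¹ * (g * n * g⁻¹) * g = n := by group
      rwa [h3]
    have hTE : T = E := hmin' T hTn hT.le hT.nc
    subst hTE
    exact quasisimple_false C.perf C.Kt C.maxK hEn hEK hcls (fun S hS => hT.min S hS hS.le) hSch

end main

end Cfsg.Agent.H229.RIM
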